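/-
Centralizers in `C` of the standard involutions and of torus elements.
-/
import Cfsg.Agent.Oct.CA
import Cfsg.Agent.Oct.UC
import Cfsg.Agent.Oct.UD
import Cfsg.Agent.Oct.UE

set_option autoImplicit false
set_option linter.unusedSectionVars false

namespace CL.Oct

open UO Cfsg

variable {K : Type*} [Field K] [CharP K 2] [Finite K] {P : Par K} {R : Rk P} {G : Type*} [Group G]

namespace CM
variable (c : CM R G)

theorem cb_n_inv : c.n⁻¹ = c.n := inv_eq_of_mul_eq_one_right c.n_sq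

theorem cb_u_mem (a : UO P) : c.u a ∈ c.C := Subgroup.mem_sup_left (Subgroup.mem_sup_left ⟨a, rfl⟩)

theorem conj_of_mv {a b : UO P} (h : Mv a b) : ∃ g ∈ c.C, g * c.u a * g⁻¹ = c.u b := by
  induction h with
  | refl => exact ⟨1, one_mem _, by simp⟩
  | conj x _ ih =>
    obtain ⟨g, hg, e⟩ := ih
    exact ⟨c.u x * g, mul_mem (c.cb_u_mem x) hg, by rw [map_mul, map_mul, map_inv, ← e]; group⟩
  | rn _ hb ih =>
    obtain ⟨g, hg, e⟩ := ih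
    refine ⟨c.n * g, mul_mem (Subgroup.mem_sup_right (Subgroup.mem_zpowers _)) hg, ?_⟩
    rw [← c.n_conj _ hb, ← e, mul_inv_rev, c.cb_n_inv]
    group

/-- conjugation by an element of the big cell -/
theorem cb_key {g : G} (hg : g ∈ c.C) (h0 : g ∉ c.B0) {a r : UO P} (h : g * c.u a * g⁻¹ = c.u r) :
    ∃ x b p, x * dg P p a * x⁻¹ ∈ Qs P ∧ rn (x * dg P p a * x⁻¹) = b * r * b⁻¹ := by
  obtain ⟨b, -, x, p, rfl⟩ := (c.mem_C_iff.1 hg).resolve_left fun e => h0 (c.mem_B0_iff.2 e)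
  have h1 : c.n * c.u (x * dg P p a * x⁻¹) * c.n = c.u (b⁻¹ * r * b⁻¹⁻¹) := by
    simp only [map_mul, map_inv, ← c.d_conj, ← h, mul_inv_rev, c.cb_n_inv]
    group
  obtain ⟨q, hq, e, he, h2⟩ := exists_Qs_mul_U8 (x * dg P p a * x⁻¹)
  obtain rfl : e = 1 := by
    refine c.n_conj_not_mem he (Subgroup.mem_sup_left ⟨(rn q)⁻¹ * (b⁻¹ * r * b⁻¹⁻¹), ?_⟩)
    rw [map_mul, map_inv, ← h1, h2, ← c.n_conj q hq, map_mul, inv_mul_eq_iff_eq_mul]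
    calc _ = c.n * c.u q * (c.n * c.n) * c.u e * c.n := by rw [c.n_sq]; group
      _ = _ := by group
  rw [mul_one] at h2
  exact ⟨x, b⁻¹, p, h2 ▸ hq, c.u_inj ((c.n_conj _ (h2 ▸ hq)).symm.trans h1)⟩

theorem mem_B0_of_V {g : G} (hg : g ∈ c.C) {a : UO P} (ha : StdA a) (h : g * c.u a * g⁻¹ ∈ c.V) : g ∈ c.B0 := by
  by_contra h0
  obtain ⟨r, hr, e⟩ := h
  obtain ⟨x, b, p, -, h1⟩ := c.cb_key hg h0 e.symm
  obtain ⟨nZ, nV, -⟩ := normal_all P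
  have h2 := nV.conj_mem _ ((dg_mem p a).2.2.2.2.2 ha.1) x
  have h3 := (h1 ▸ nV.conj_mem r hr b).2.2.1
  generalize e1 : x * dg P p a * x⁻¹ = y at h2 h3
  obtain ⟨k1, k2, k3, k4, k5, k6, k7, k8, k9, k10⟩ := h2
  have h4 : y ∈ Zs P := ⟨k1, k2, k3, k4, k5, k6, k7, by simpa [k2, k5] using h3, k8, k9, k10⟩
  rw [← e1, nZ.mem_comm_iff, inv_mul_cancel_left, (dg_mem p a).2.2.2.1] at h4
  exact ha.2 h4.2.2.2.2.2.2.2.1

theorem mem_B0_of_std {g : G} (hg : g ∈ c.C) {a : UO P} (ha : Std a) (h : Commute g (c.u a)) : g ∈ c.B0 := by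
  have e : g * c.u a * g⁻¹ = c.u a := by rw [h.eq, mul_inv_cancel_right]
  obtain ⟨-, nV, n3, -, nQ, nP, -⟩ := normal_all P
  rcases ha with ha | ha
  · exact c.mem_B0_of_V hg ha ⟨a, ha.1, e.symm⟩
  by_contra h0
  obtain ⟨x, b, p, h5, h1⟩ := c.cb_key hg h0 e
  rcases ha with ⟨t, ht, rfl⟩ | ⟨t, ht, rfl⟩ | ⟨t, s, ht, rfl⟩
  · have h2 := n3.conj_mem (dg P p (x5 t)) (by simp) x
    have h3 := (h1 ▸ n3.conj_mem (x5 t) (by simp) b).2.2.2.1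
    generalize e1 : x * dg P p (x5 t) * x⁻¹ = y at h2 h3
    obtain ⟨k1, k2, k3, k4, k5, k7, k8, k9, k10⟩ := h2
    have h4 : y ∈ Vs P := ⟨k1, k2, k3, k4, k5, by simpa [k1, k5, k8] using h3, k7, k8, k9, k10⟩
    rw [← e1, nV.mem_comm_iff, inv_mul_cancel_left, (dg_mem p _).2.2.2.2] at h4
    exact ht h4.2.2.2.2.2.1
  · have h3 : (rn (x * dg P p (x7 t) * x⁻¹)).a1 = 0 := h1 ▸ nP.conj_mem (x7 t) (by simp) b
    generalize e1 : x * dg P p (x7 t) * x⁻¹ = y at h3 h5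
    have h4 := congrArg UO.a7 (mul_inv_eq_iff_eq_mul.1 e1)
    rw [rn_a1] at h3
    simp [h3, h5.1, h5.2, ht, c7] at h4
  · rw [nQ.mem_comm_iff, inv_mul_cancel_left, (dg_mem p _).1] at h5
    exact ht (by simpa using h5.2)

theorem two_cent_std {g : G} (hg : g ∈ c.C) {k : ℕ} (hk : g ^ 2 ^ k = 1) {a : UO P} (ha : Std a) (h : Commute g (c.u a)) :
    g ∈ c.im (Subgroup.centralizer {a}) := by
  obtain ⟨x, rfl⟩ := c.mem_S_of_two (c.mem_B0_of_std hg ha h) hk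
  exact ⟨x, Subgroup.mem_centralizer_singleton_iff.2 (c.u_inj (by rw [map_mul, map_mul, h.eq])), rfl⟩

theorem two_cent_d {g : G} (hg : g ∈ c.C) {k : ℕ} (hk : g ^ 2 ^ k = 1) {p : Dp P} (hp : p ≠ 1) (h : Commute g (c.d p)) :
    g ∈ c.im (U4 P) := by
  have e : c.d p * g * (c.d p)⁻¹ = g := by rw [← h.eq, mul_inv_cancel_right]
  rcases c.mem_C_iff.1 hg with h1 | ⟨b, hb, a, q, rfl⟩
  · obtain ⟨x, rfl⟩ := c.mem_S_of_two (c.mem_B0_iff.2 h1) hk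
    exact ⟨x, fix_Dp p.2 (fun e => hp (Subtype.ext e)) (c.u_inj ((c.d_conj p x).symm.trans e)), rfl⟩
  have h1 : c.u (dg P p b) * c.n * c.u (dg P (p⁻¹ : Dp P) a) * c.d (p⁻¹ * q * p⁻¹) = c.u b * c.n * c.u a * c.d q := by
    have h3 : (c.d p)⁻¹ * c.n = c.n * c.d p := by rw [← c.n_d, mul_assoc, c.n_sq, mul_one]
    rw [← e, ← c.d_conj, ← c.d_conj]
    simp only [map_mul, map_inv]
    calc _ = c.d p * c.u b * ((c.d p)⁻¹ * c.n) * (c.d p)⁻¹ * c.u a * c.d q * (c.d p)⁻¹ := by group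
      _ = _ := by rw [h3]; group
  have h2 := (c.bruhat_unique ((dg_mem p b).2.2.1.2 hb) hb h1).2.2
  have h3 : p ^ 2 ^ 1 = 1 := by
    rw [mul_right_comm, mul_eq_right, ← mul_inv, inv_eq_one] at h2
    rw [pow_one, sq, h2]
  have h4 := congrArg Subtype.val h3
  exact (hp (Subtype.ext (Prod.ext (Units.ext (units_eq_one_of_pow (congrArg (fun z => (z.1 : K)) h4)))
    (Units.ext (units_eq_one_of_pow (congrArg (fun z => (z.2 : K)) h4)))))).elim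

theorem exists_std_conj {y : G} (hy : y ∈ c.S) (h2 : y * y = 1) (hZ : y ∉ c.Z) :
    ∃ g ∈ c.C, ∃ a, Std a ∧ g * y * g⁻¹ = c.u a ∧ (y ∈ c.im (Ws P) → StdA a ∨ StdB a) := by
  obtain ⟨x, rfl⟩ := hy
  obtain ⟨a, ha, h⟩ := exists_std (a := x) (c.u_inj (by rw [map_mul, h2, map_one])) fun e => hZ ⟨x, e, rfl⟩
  obtain ⟨g, hg, e⟩ := c.conj_of_mv h
  exact ⟨g, hg, a, ha, e, fun ⟨w, hw, e'⟩ => Std.of_Ws ha (h.mem_Ws (c.u_inj e' ▸ hw))⟩

end CM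

end CL.Oct
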