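/-
Basic local facts for a group with a 2-central involution centralizer of large Ree type.
-/
import Cfsg.Agent.Oct.CB
import Cfsg.Agent.Oct.UB
import Cfsg.Agent.Even.Amb
import Cfsg.Agent.Grp.SylowIn
import Cfsg.Agent.Grp.CoresPi

set_option autoImplicit false
set_option linter.unusedSectionVars false

namespace CL.Oct

open UO Cfsg Subgroup CL.Even CL.Grp
open scoped commutatorElement

variable {K : Type*} [Field K] [CharP K 2] [Finite K] {P : Par K} {R : Rk P} {G : Type*} [Group G]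

namespace GAx

theorem two_of_central {E : Type*} [Group E] [Finite E] (h : pPrimeCore 2 E = ⊥)
    (hc : ∀ x : E, (∃ k, x ^ 2 ^ k = 1) → x ∈ center E) : IsPGroup 2 E := by
  have : Fact (Nat.Prime 2) := ⟨Nat.prime_two⟩
  obtain ⟨T⟩ : Nonempty (Sylow 2 E) := inferInstance
  have hT : normalizer (T : Set E) ≤ centralizer (T : Set E) := fun g _ x hx =>
    (mem_center_iff.1 (hc x ((T.isPGroup' ⟨x, hx⟩).imp fun _ e => congrArg Subtype.val e)) g).symm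
  have h1 := le_pPrimeCore_of_not_dvd (MonoidHom.not_dvd_card_ker_transferSylow T hT)
  have h2 := (MonoidHom.ker_transferSylow_isComplement' T hT).sup_eq_top
  rw [h, le_bot_iff] at h1
  rw [h1, bot_sup_eq] at h2
  exact (h2 ▸ T.isPGroup').of_equiv topEquiv

variable (c : CM R G)

theorem isP : IsPGroup 2 c.S := (isPGroup P).of_surjective _ c.u.rangeRestrict_surjective

theorem two_S {x : G} (hx : x ∈ c.S) : ∃ k, x ^ 2 ^ k = 1 := (isP c ⟨x, hx⟩).imp fun _ e => congrArg Subtype.val e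

theorem S_le_C : c.S ≤ c.C := le_sup_left.trans le_sup_left

theorem u_mem (a : UO P) : c.u a ∈ c.C := S_le_C c ⟨a, rfl⟩

theorem im_le (A : Subgroup (UO P)) : c.im A ≤ c.S := map_le_range _ _

theorem x4_mem (t : K) : c.u (x4 t) ∈ c.Z := ⟨_, by simp, rfl⟩

theorem Z_le_V : c.Z ≤ c.V := map_mono fun x hx => by simp only [mem_Zs, mem_Vs] at *; tauto

theorem Z_le_Q : c.Z ≤ c.Q := map_mono fun x hx => by simp only [mem_Zs, mem_Qs] at *; tauto

theorem Vs_le : Vs P ≤ Qp P := fun x hx => by simp only [mem_Vs, mem_Qp] at *; tauto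

theorem stdA_one : StdA (x6 1 : UO P) := ⟨by simp, by simp⟩

variable {c}

theorem exists_aut {g : G} (hg : g ∈ 𝒩(c.S)) : ∃ α : MulAut (UO P), ∀ a, g * c.u a * g⁻¹ = c.u (α a) := by
  let e := MonoidHom.ofInjective c.u_inj
  refine ⟨e.trans ((c.S.normalizerMonoidHom ⟨g, hg⟩).trans e.symm), fun a => ?_⟩
  exact (congrArg Subtype.val (e.apply_symm_apply (c.S.normalizerMonoidHom ⟨g, hg⟩ (e a)))).symm

theorem norm_of [Finite G] {H : Subgroup G} {g : G} (h : ∀ x ∈ H, g * x * g⁻¹ ∈ H) : g ∈ 𝒩(H) :=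
  mem_norm_of_cj_le (by rintro _ ⟨x, hx, rfl⟩; exact h x hx)

theorem norm_im [Finite G] {g : G} {α : MulAut (UO P)} (hα : ∀ a, g * c.u a * g⁻¹ = c.u (α a))
    {A : Subgroup (UO P)} (hA : ∀ a ∈ A, α a ∈ A) : g ∈ 𝒩(c.im A) :=
  norm_of (by rintro _ ⟨a, ha, rfl⟩; exact ⟨_, hA a ha, (hα a).symm⟩)

theorem conj_two {x : G} {k : ℕ} (h : x ^ 2 ^ k = 1) (g : G) : (g * x * g⁻¹) ^ 2 ^ k = 1 := by
  rw [conj_pow, h, mul_one, mul_inv_cancel]

/-- a 2-element of `C` normalizing `V` lies in `S` -/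
theorem mem_S {g : G} (h1 : g ∈ c.C) (h2 : g ∈ 𝒩(c.V)) {k : ℕ} (hk : g ^ 2 ^ k = 1) : g ∈ c.S :=
  c.mem_S_of_two (c.mem_B0_of_V h1 stdA_one (conj_mem h2 ⟨_, stdA_one.1, rfl⟩)) hk

end GAx

open GAx

variable [Finite G]

namespace CM.St
variable {c : CM R G} {t0 : K} (h : c.St t0)
include h

theorem sylIn {H : Subgroup G} (hH : c.S ≤ H) : IsSylowIn 2 c.S H :=
  IsSylowIn.of_le ⟨le_top, isP c, by rw [relIndex_top_right]; exact h.syl⟩ hH le_top

theorem exists_sylow : ∃ S : Sylow 2 G, (S : Subgroup G) = c.S := ⟨(isP c).toSylow h.syl, rfl⟩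

theorem mem_C_of_two {g : G} (hg : g ∈ Subgroup.normalizer (c.C : Set G)) {k : ℕ} (hk : g ^ 2 ^ k = 1) : g ∈ c.C := by
  have : Fact (Nat.Prime 2) := ⟨Nat.prime_two⟩
  obtain ⟨j, -, hj⟩ := (Nat.dvd_prime_pow Nat.prime_two).1 (orderOf_dvd_of_pow_eq_one hk)
  have h1 : IsPGroup 2 (zpowers g) := IsPGroup.of_card ((Nat.card_zpowers g).trans hj)
  obtain ⟨m, hm, e⟩ := (h.sylIn ((S_le_C c).trans le_normalizer)).exists_conj_le h1 (zpowers_le.2 hg)
  simpa [mul_assoc] using conj_mem' hm (S_le_C c (e (conj_mem_cj m (mem_zpowers g))))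

theorem mem_normalizer_of_conj {g : G} (hg : g * c.u (x4 t0) * g⁻¹ ∈ c.Z) : g ∈ Subgroup.normalizer (c.C : Set G) := by
  obtain ⟨a, ha, e⟩ := hg
  obtain ⟨s, rfl⟩ := mem_Zs_iff_x4.1 ha
  refine inv_mem_iff.1 (mem_norm_of_cj_le (le_cj_iff.1 (c.C_le_of_two ?_)))
  rintro x hx ⟨k, hk⟩
  refine mem_cj.2 (h.mem_C_of_two (h.norm (mem_centralizer_singleton_iff.2 ?_)) (k := k)
    (by simpa using conj_two hk g⁻¹))
  simpa [mul_assoc] using ((e ▸ c.commute_Z hx s : Commute x (g * c.u (x4 t0) * g⁻¹)).conj g⁻¹).eq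

theorem normalizer_Z : Subgroup.normalizer (c.Z : Set G) = Subgroup.normalizer (c.C : Set G) := by
  refine le_antisymm (fun g hg => h.mem_normalizer_of_conj (conj_mem hg (x4_mem c t0))) fun g hg => norm_of ?_
  rintro _ ⟨a, ha, rfl⟩
  obtain ⟨s, rfl⟩ := mem_Zs_iff_x4.1 ha
  refine c.mem_Z_of_cent_Q (conj_mem hg (u_mem c _)) fun y hy => ?_
  simpa [mul_assoc] using (c.commute_Z (conj_mem' hg (S_le_C c (im_le c _ hy))) s).symm.conj g

theorem cent_conj_le {g : G} (hg : g * c.u (x4 t0) * g⁻¹ ∈ c.Z) :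
    Subgroup.centralizer {g * c.u (x4 t0) * g⁻¹} ≤ Subgroup.normalizer (c.C : Set G) := fun x hx => by
  have h1 := h.mem_normalizer_of_conj hg
  have h2 : g⁻¹ * x * g ∈ 𝒩(c.C) := h.norm (mem_centralizer_singleton_iff.2 (by
    simpa [mul_assoc] using ((show Commute x _ from mem_centralizer_singleton_iff.1 hx).conj g⁻¹).eq))
  exact (mul_mem_cancel_left (inv_mem h1)).1 ((mul_mem_cancel_right h1).1 h2)

theorem cent_Q {g : G} (hg : ∀ x ∈ c.Q, Commute g x) : g ∈ c.Z := by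
  have h1 : 𝒞(c.Q) ≤ centralizer {c.u (x4 t0)} := centralizer_le (Set.singleton_subset_iff.2 (Z_le_Q c (x4_mem c t0)))
  have h2 : ∀ x ∈ 𝒞(c.Q), (∃ k, x ^ 2 ^ k = 1) → x ∈ c.Z := fun x hx ⟨_, hk⟩ =>
    c.mem_Z_of_cent_Q (h.mem_C_of_two (h.norm (h1 hx)) hk) fun y hy => (hx y hy).symm
  have h3 := pPrimeCoreOf_le_of_le_normalizer (p := 2) h1 (le_norm_cent (h.norm.trans c.normalizer_C_le_Q))
  have h4 : pPrimeCore 2 𝒞(c.Q) = ⊥ := by
    have h5 : pPrimeCore 2 (centralizer ({c.u (x4 t0)} : Set G)) = ⊥ := h.core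
    rw [pPrimeCoreOf, pPrimeCoreOf, h5, Subgroup.map_bot, le_bot_iff] at h3
    exact (map_eq_bot_iff_of_injective _ (subtype_injective _)).1 h3
  have h5 := two_of_central h4 fun x ⟨k, hk⟩ => mem_center_iff.2 fun y =>
    Subtype.ext (y.2 x (Z_le_Q c (h2 x x.2 ⟨k, congrArg Subtype.val hk⟩))).symm
  have hg' : g ∈ 𝒞(c.Q) := fun x hx => (hg x hx).eq.symm
  exact h2 g hg' ((h5 ⟨g, hg'⟩).imp fun _ e => congrArg Subtype.val e)

theorem normalizer_S_le : Subgroup.normalizer (c.S : Set G) ≤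
    Subgroup.normalizer (c.C : Set G) ⊓ Subgroup.normalizer (c.V : Set G) := fun g hg => by
  obtain ⟨α, hα⟩ := exists_aut hg
  exact ⟨h.normalizer_Z.le (norm_im hα fun a => (aut_mem α a).1.2), norm_im hα fun a => (aut_mem α a).2.1.2⟩

theorem mem_normalizer_S {g : G} (h1 : g ∈ Subgroup.normalizer (c.C : Set G)) (h2 : g ∈ Subgroup.normalizer (c.V : Set G)) :
    g ∈ Subgroup.normalizer (c.S : Set G) := norm_of fun _ hx =>
  let ⟨_, hk⟩ := two_S c hx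
  mem_S (conj_mem h1 (S_le_C c hx))
    (mul_mem (mul_mem h2 (h.normalizer_S_le (le_normalizer hx)).2) (inv_mem h2)) (conj_two hk g)

theorem lin_acts {g : G} (hg : g ∈ Subgroup.normalizer (c.S : Set G)) {κ : K}
    (hκ : ∀ t, g * c.u (x4 t) * g⁻¹ = c.u (x4 (κ * t))) :
    ∃ p, c.ActsG g p ∧ κ = c4 P p ∧ ∀ t, ∃ s, g * c.u (x6 t) * g⁻¹ = c.v s (c6 P p * t) := by
  obtain ⟨α, hα⟩ := exists_aut hg
  obtain ⟨p, h1, h2, h3⟩ := aut2 α fun t => c.u_inj ((hα _).symm.trans (hκ t))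
  refine ⟨p, fun a => ⟨α a, hα a, h1 a⟩, h2, fun t => ?_⟩
  obtain ⟨a, b, e⟩ := mem_Vs_iff_v.1 ((aut_mem α (x6 t)).2.1.2 (by simp))
  have h4 := h3 t
  rw [e] at h4
  exact ⟨a, by rw [hα, e, ← h4, CM.v]; simp⟩

theorem mem_S_of_acts {g : G} (hg : c.ActsG g 1) : g ∈ c.S := by
  have h1 : g ∈ 𝒩(c.S) := norm_of (by
    rintro _ ⟨a, rfl⟩
    obtain ⟨b, e, -⟩ := hg a
    exact ⟨b, e.symm⟩)
  obtain ⟨α, hα⟩ := exists_aut h1
  obtain ⟨k, hk⟩ := pow_eq_one_of_acts (α := α) fun a => by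
    obtain ⟨b, e, h2⟩ := hg a
    rwa [c.u_inj ((hα a).symm.trans e)]
  have h2 : ∀ n : ℕ, ∀ a, g ^ n * c.u a * (g ^ n)⁻¹ = c.u ((α ^ n) a) := fun n => by
    induction n with
    | zero => simp
    | succ n ih => intro a; rw [pow_succ', pow_succ', MulAut.mul_apply, ← hα, ← ih]; group
  obtain ⟨j, hj⟩ := two_S c (im_le c _ (h.cent_Q (g := g ^ 2 ^ k) (by
    rintro _ ⟨a, -, rfl⟩
    exact mul_inv_eq_iff_eq_mul.1 (by rw [h2, hk]; rfl))))
  rw [← pow_mul, ← pow_add] at hj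
  exact mem_S (h.mem_C_of_two (h.normalizer_S_le h1).1 hj) (h.normalizer_S_le h1).2 hj

theorem cent_V : Subgroup.centralizer (c.V : Set G) = c.Q' := by
  refine le_antisymm (fun g hg => ?_) ?_
  · have h1 : ∀ a ∈ Vs P, g * c.u a * g⁻¹ = c.u a := fun a ha =>
      mul_inv_eq_iff_eq_mul.2 (hg _ ⟨a, ha, rfl⟩).symm
    obtain ⟨p, h2, h3, h4⟩ := h.lin_acts (h.mem_normalizer_S
      (h.norm (mem_centralizer_singleton_iff.2 (hg _ (Z_le_V c (x4_mem c t0))).symm)) (cent_le_norm _ hg)) (κ := 1)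
      fun t => by rw [one_mul, h1 _ (by simp)]
    obtain ⟨s, h5⟩ := h4 1
    have h6 := congrArg UO.a6 (c.u_inj ((h1 _ (by simp)).symm.trans h5))
    obtain rfl : p = 1 := eq_of_c46 (P := P) (by rw [← h3]; simp [c4]) (by simpa [c6] using h6.symm)
    obtain ⟨a, rfl⟩ := h.mem_S_of_acts h2
    exact ⟨a, mem_Qp_iff.2 fun v hv => c.u_inj (by rw [map_mul, map_mul]; exact (hg _ ⟨v, hv, rfl⟩).symm), rfl⟩
  · rintro _ ⟨a, ha, rfl⟩ _ ⟨v, hv, rfl⟩
    exact ((mem_Qp_iff.1 ha v hv).map c.u).eq.symm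

theorem normalizer_Q' : Subgroup.normalizer (c.Q' : Set G) = Subgroup.normalizer (c.V : Set G) := by
  refine le_antisymm ?_ (h.cent_V ▸ norm_le_norm_cent _)
  have : c.V = c.Q' ⊓ 𝒞(c.Q') := by
    refine le_antisymm (le_inf (map_mono Vs_le) (le_centralizer_iff.1 h.cent_V.ge)) ?_
    rintro _ ⟨⟨a, ha, rfl⟩, h1⟩
    exact ⟨a, (center_Qp ha).1 fun b hb => c.u_inj (by rw [map_mul, map_mul]; exact (h1 _ ⟨b, hb, rfl⟩).symm), rfl⟩
  rw [this]
  exact le_norm_inf le_rfl (norm_le_norm_cent _)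

theorem frattini {g : G} (hg : g ∈ Subgroup.normalizer (c.C : Set G)) :
    ∃ k ∈ c.C, ∃ s ∈ Subgroup.normalizer (c.S : Set G), g = k * s := by
  have : Fact (Nat.Prime 2) := ⟨Nat.prime_two⟩
  obtain ⟨k, hk, e⟩ := (h.sylIn (S_le_C c)).exists_conj_eq ((h.sylIn (S_le_C c)).conj_smul_of_mem_normalizer hg)
  refine ⟨k, hk, k⁻¹ * g, cj_eq_iff_mem.1 ?_, by group⟩
  rw [conj_smul_eq_map, conj_smul_eq_map] at e
  rw [cj_mul, ← e, cj_inv_cj]

theorem cent_eq_of_two (hq : Nat.card K = 2) : Subgroup.centralizer {c.u (x4 t0)} = c.C := by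
  refine le_antisymm (fun g hg => ?_) fun g hg => mem_centralizer_singleton_iff.2 (c.commute_Z hg t0)
  obtain ⟨k, hk, s, hs, rfl⟩ := h.frattini (h.norm hg)
  have h1 := mem_centralizer_singleton_iff.1
    ((mul_mem_cancel_left (mem_centralizer_singleton_iff.2 (c.commute_Z hk t0).eq)).1 hg)
  obtain ⟨y, -, hy⟩ := (Nat.card_eq_two_iff' (0 : K)).1 hq
  obtain ⟨p, h2, -⟩ := h.lin_acts hs (κ := 1) fun t => by
    rw [one_mul, mul_inv_eq_iff_eq_mul]
    by_cases ht : t = 0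
    · rw [ht, show (x4 0 : UO P) = 1 from rfl, map_one, mul_one, one_mul]
    · rw [hy t ht, ← hy t0 h.ne, h1]
  have h3 : ∀ x : Kˣ, x = 1 := fun x => Units.ext ((hy _ x.ne_zero).trans (hy _ one_ne_zero).symm)
  obtain rfl : p = 1 := Prod.ext (h3 _) (h3 _)
  exact mul_mem hk (S_le_C c (h.mem_S_of_acts h2))

end CM.St

end CL.Oct
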