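/-
The partner of a conjugate of `τ`; involutions of type B are not conjugate to `τ`.
-/
import Cfsg.Agent.Oct.GA
import Cfsg.Agent.Grp.SylowIn

set_option autoImplicit false
set_option linter.unusedSectionVars false

namespace CL.Oct

open UO Cfsg CL.Grp
open scoped commutatorElement

variable {K : Type*} [Field K] [CharP K 2] [Finite K] {P : Par K} {R : Rk P} {G : Type*} [Group G] [Finite G]

theorem gf_pow {m n : ℕ} (h : Nat.card K ^ m = Nat.card K ^ n) : m = n :=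
  Nat.pow_right_injective (Finite.one_lt_card (α := K)) h

theorem gf_cent {a : UO P} (h : StdC a ∨ StdD a) :
    Subgroup.centralizer {a} = Tc P ∨ Subgroup.centralizer {a} = Td P := h.imp cent_stdC cent_stdD

theorem gf_card {a : UO P} (h : StdC a ∨ StdD a) : Nat.card (Subgroup.centralizer {a}) = Nat.card K ^ 8 :=
  (gf_cent h).elim (fun e => e ▸ card_Tc P) fun e => e ▸ card_Td P

namespace CM.St
variable {c : CM R G} {t0 : K} (h : c.St t0)
include h

theorem gf_memC {x : G} {k : ℕ} (hk : x ^ 2 ^ k = 1) (hx : Commute x (c.u (x4 t0))) : x ∈ c.C :=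
  h.mem_C_of_two (h.norm (Subgroup.mem_centralizer_singleton_iff.2 hx)) hk

omit h in
theorem gf_S_le : c.S ≤ c.C := le_sup_left.trans le_sup_left

theorem gf_conj {g x : G} {a b : UO P} (ha : Std a) (h1 : g * c.u b * g⁻¹ = c.u (x4 t0))
    (h2 : g * c.u (x4 t0) * g⁻¹ = c.u a) (hx : x ∈ c.im (Subgroup.centralizer {b})) :
    g * x * g⁻¹ ∈ c.im (Subgroup.centralizer {a}) := by
  obtain ⟨y, hy, rfl⟩ := hx
  obtain ⟨k, hk⟩ := isPGroup P y
  have e : (g * c.u y * g⁻¹) ^ 2 ^ k = 1 := by rw [conj_pow, ← map_pow, hk, map_one, mul_one, mul_inv_cancel]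
  have hy' : Commute y b := Subgroup.mem_centralizer_singleton_iff.1 hy
  exact c.two_cent_std (h.gf_memC e (h1 ▸ (hy'.map c.u).conj g)) e ha
    (h2 ▸ (c.commute_Z (gf_S_le ⟨y, rfl⟩) t0).conj g)

theorem partner {g : G} {a : UO P} (ha : Std a) (hg : g * c.u (x4 t0) * g⁻¹ = c.u a) :
    ∃ k ∈ c.C, ∃ b, Std b ∧ (g * k) * c.u b * (g * k)⁻¹ = c.u (x4 t0) ∧
      (c.im (Subgroup.centralizer {b})).map (MulAut.conj (g * k)).toMonoidHom = c.im (Subgroup.centralizer {a}) := by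
  have t2 : c.u (x4 t0) * c.u (x4 t0) = 1 := by
    rw [← map_mul, ← map_one c.u]; congr 1; ext <;> simp [CharTwo.add_self_eq_zero]
  have y2 : ∀ g : G, g * c.u (x4 t0) * g⁻¹ * (g * c.u (x4 t0) * g⁻¹) = 1 := fun g => by
    rw [show ∀ t : G, g * t * g⁻¹ * (g * t * g⁻¹) = g * (t * t) * g⁻¹ from fun _ => by group, t2]; group
  have yk : (g⁻¹ * c.u (x4 t0) * g⁻¹⁻¹) ^ 2 ^ 1 = 1 := by rw [pow_one, sq, y2]
  have yC : g⁻¹ * c.u (x4 t0) * g⁻¹⁻¹ ∈ c.C := h.gf_memC yk (by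
    have := (c.commute_Z (gf_S_le ⟨a, rfl⟩) t0).symm.conj g⁻¹
    rwa [← hg, show ∀ t : G, g⁻¹ * (g * t * g⁻¹) * g⁻¹⁻¹ = t from fun _ => by group] at this)
  obtain ⟨S, hS⟩ := h.exists_sylow
  obtain ⟨k1, hk1, e1⟩ := (isSylowIn_of_le S (hS ▸ gf_S_le (c := c))).exists_conj_le
    (U := Subgroup.zpowers (g⁻¹ * c.u (x4 t0) * g⁻¹⁻¹)) (fun ⟨_, i, e⟩ => ⟨1, Subtype.ext (by
      subst e
      show ((g⁻¹ * c.u (x4 t0) * g⁻¹⁻¹) ^ i) ^ 2 ^ 1 = 1
      rw [← zpow_natCast, ← zpow_mul, mul_comm i, zpow_mul, zpow_natCast, yk, one_zpow])⟩) (Subgroup.zpowers_le.2 yC)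
  have e2 := e1 (conj_mem_conj_smul k1 (Subgroup.mem_zpowers _))
  rw [hS, show ∀ t : G, k1 * (g⁻¹ * t * g⁻¹⁻¹) * k1⁻¹ = k1 * g⁻¹ * t * (k1 * g⁻¹)⁻¹ from fun _ => by group] at e2
  obtain ⟨k2, hk2, b, hb, e3, -⟩ := c.exists_std_conj e2 (y2 _) fun hZ => by
    have n1 : g ∈ Subgroup.normalizer (c.Z : Set G) := by
      have := mul_mem (inv_mem (h.mem_normalizer_of_conj hZ)) (Subgroup.le_normalizer hk1)
      rwa [← h.normalizer_Z, mul_inv_rev, inv_inv, inv_mul_cancel_right] at this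
    obtain ⟨z, hz, e⟩ := (Subgroup.mem_normalizer_iff.1 n1 _).1 ⟨x4 t0, by simp, rfl⟩
    exact (Std.sq ha).2 (c.u_inj (e.trans hg) ▸ hz)
  have hk : (k2 * k1)⁻¹ ∈ c.C := inv_mem (mul_mem hk2 hk1)
  have e4 : g * (k2 * k1)⁻¹ * c.u b * (g * (k2 * k1)⁻¹)⁻¹ = c.u (x4 t0) := by rw [← e3]; group
  have e5 : g * (k2 * k1)⁻¹ * c.u (x4 t0) * (g * (k2 * k1)⁻¹)⁻¹ = c.u a := by
    rw [mul_assoc g, (c.commute_Z hk t0).eq, ← hg]; group
  refine ⟨_, hk, b, hb, e4, le_antisymm ?_ fun x hx => ⟨_, h.gf_conj (g := (g * (k2 * k1)⁻¹)⁻¹) hb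
    (by rw [← e5]; group) (by rw [← e4]; group) hx, by simp [mul_assoc]⟩⟩
  rintro _ ⟨x, hx, rfl⟩
  exact h.gf_conj ha e4 e5 hx

omit h in
theorem gf_card_eq {g : G} {A B : Subgroup (UO P)} (e : (c.im B).map (MulAut.conj g).toMonoidHom = c.im A) :
    Nat.card B = Nat.card A := by
  rw [← Subgroup.card_map_of_injective (K := A) c.u_inj, ← Subgroup.card_map_of_injective (K := B) c.u_inj]
  exact (Subgroup.card_map_of_injective (MulAut.conj g).injective).symm.trans (congrArg (fun H : Subgroup G => Nat.card H) e)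

theorem not_stdB {g : G} {a : UO P} (ha : StdB a) : g * c.u (x4 t0) * g⁻¹ ≠ c.u a := fun hg => by
  obtain ⟨k, hk, b, hb, -, e⟩ := h.partner (.inr (.inl ha)) hg
  have e1 := gf_card_eq e
  rw [cent_stdB ha] at e e1
  rw [card_Tb] at e1
  have e2 : Subgroup.centralizer {b} = Tb P := by
    obtain hb | hb | hb := hb
    · rw [cent_stdA hb, card_Qp] at e1; exact absurd (gf_pow e1) (by decide)
    · exact cent_stdB hb
    · rw [gf_card hb] at e1; exact absurd (gf_pow e1) (by decide)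
  rw [e2, ← conj_smul_eq_map, conj_smul_eq_self_iff] at e
  let f := (Tb P).equivMapOfInjective c.u c.u_inj
  have := aut_Tb (f.trans (((c.im (Tb P)).normalizerMonoidHom ⟨_, e⟩).trans f.symm)) ⟨x4 t0, by simp⟩ (by simp)
  refine (Std.sq (.inr (.inl ha))).2 ?_
  convert this using 1
  refine c.u_inj (Eq.symm ?_)
  rw [← hg, ← Subgroup.coe_equivMapOfInjective_apply _ c.u c.u_inj, MulEquiv.trans_apply, MulEquiv.trans_apply,
    MulEquiv.apply_symm_apply]
  show g * k * c.u (x4 t0) * (g * k)⁻¹ = _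
  rw [mul_assoc g, (c.commute_Z hk t0).eq]; group

theorem partnerCD {g : G} {a : UO P} (ha : StdC a ∨ StdD a) (hg : g * c.u (x4 t0) * g⁻¹ = c.u a) :
    ∃ k ∈ c.C, ∃ b, (StdC b ∨ StdD b) ∧ (g * k) * c.u b * (g * k)⁻¹ = c.u (x4 t0) ∧
      (c.im (Subgroup.centralizer {b})).map (MulAut.conj (g * k)).toMonoidHom = c.im (Subgroup.centralizer {a}) ∧
      g * k ∈ Subgroup.normalizer (c.im (V6 P) : Set G) := by
  obtain ⟨k, hk, b, hb, e0, e⟩ := h.partner (.inr (.inr ha)) hg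
  have e1 := gf_card_eq e
  rw [gf_card ha] at e1
  have hb' : StdC b ∨ StdD b := by
    obtain hb | hb | hb := hb
    · rw [cent_stdA hb, card_Qp] at e1; exact absurd (gf_pow e1) (by decide)
    · rw [cent_stdB hb, card_Tb] at e1; exact absurd (gf_pow e1) (by decide)
    · exact hb
  refine ⟨k, hk, b, hb', e0, e, ?_⟩
  rw [← conj_smul_eq_self_iff, conj_smul_eq_map]
  nth_rewrite 1 [← gamma3 (gf_cent hb')]
  rw [← gamma3 (gf_cent ha)]
  simp only [Subgroup.map_commutator, e]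

end CM.St

end CL.Oct
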