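/-
Project OCT: if `N(V) ≤ N(Z)`, the conjugates of `τ` in `S` lie in `Z`.
-/
import Cfsg.Agent.Oct.GF
import Cfsg.Agent.Even.Amb2

set_option autoImplicit false
set_option linter.unusedSectionVars false

namespace CL.Oct

open UO Cfsg Subgroup CL.Even CL.Grp
open scoped commutatorElement

variable {K : Type*} [Field K] [CharP K 2] [Finite K] {P : Par K} {R : Rk P} {G : Type*} [Group G] [Finite G]

namespace GF2

/-- the elements normalising `T`, centralising `W` and centralising the centre of `T` modulo `W` -/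
def MM (T W : Subgroup G) : Subgroup G := 𝒩(T) ⊓ 𝒞(W) ⊓ cmod (T ⊓ 𝒞(T)) W

theorem MM_conj {T W : Subgroup G} (g : G) : cj g (MM T W) ≤ MM (cj g T) (cj g W) := by
  rintro _ ⟨x, ⟨⟨h1, h2⟩, h3, h4⟩, rfl⟩
  refine ⟨⟨cj_norm g T ▸ conj_mem_cj g h1, cj_cent g W ▸ conj_mem_cj g h2⟩, cj_norm g W ▸ conj_mem_cj g h3, fun z hz => ?_⟩
  rw [← cj_cent, ← cj_inf] at hz
  obtain ⟨z, hz, rfl⟩ := hz
  exact ⟨_, h4 z hz, map_commutatorElement _ _ _⟩

theorem MM_sq {T W : Subgroup G} (hW : ∀ w ∈ W, w * w = 1) {x : G} (hx : x ∈ MM T W) : x ^ 2 ^ 1 ∈ 𝒞(T ⊓ 𝒞(T)) :=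
  mem_centralizer_iff.2 fun z hz => by
    have h1 := hx.2.2 z hz
    have e : z * x = ⁅z, x⁆ * x * z := by rw [commutatorElement_def]; group
    rw [pow_one, sq, ← mul_assoc, e, mul_assoc _ z, e, ← mul_assoc, ← mul_assoc, mul_assoc _ x ⁅z, x⁆,
      ← comm_of_mem hx.1.2 h1, ← mul_assoc, hW _ h1, one_mul]

variable {c : CM R G} {t0 : K}

theorem two (c : CM R G) (A : Subgroup (UO P)) : IsPGroup 2 (c.im A) := ((UO.isPGroup P).to_subgroup A).map _

theorem tp_le (c : CM R G) {T : Subgroup (UO P)} (hT : T = Tc P ∨ T = Td P) : c.im (Tp P) ≤ MM (c.im T) (c.im (V6 P)) := by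
  obtain ⟨-, -, h3, h4, h5, -⟩ := Tp_facts hT
  rintro _ ⟨x, hx, rfl⟩
  have k : c.u x ∈ 𝒞(c.im (V6 P)) := mem_centralizer_iff.2 (by
    rintro _ ⟨w, hw, rfl⟩
    exact ((mem_Qp_iff.1 (h3 hx) w (by simp_all)).map c.u).symm.eq)
  refine ⟨⟨le_normalizer_map _ (mem_map_of_mem _ (h4 hx)), k⟩, cent_le_norm _ k, ?_⟩
  rintro _ ⟨⟨z, hz, rfl⟩, hz'⟩
  exact ⟨_, h5 z hz (fun y hy => c.u_inj (by simpa using (comm_of_mem hz' (mem_map_of_mem _ hy)).symm)) x hx,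
    map_commutatorElement _ _ _⟩

theorem tp_cen (c : CM R G) {T : Subgroup (UO P)} (hT : T = Tc P ∨ T = Td P) : c.im T ⊓ 𝒞(c.im (Tp P)) ≤ c.V := by
  rintro _ ⟨⟨z, hz, rfl⟩, hz'⟩
  exact mem_map_of_mem _ ((Tp_facts hT).2.2.2.2.2 z hz fun y hy =>
    c.u_inj (by simpa using (comm_of_mem hz' (mem_map_of_mem _ hy)).symm))

theorem cent_cd {a : UO P} (h : StdC a ∨ StdD a) : centralizer {a} = Tc P ∨ centralizer {a} = Td P :=
  h.imp cent_stdC cent_stdD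

theorem syl (h : c.St t0) (hb : 𝒩(c.V) ≤ 𝒩(c.Z)) {a : UO P} (ha : StdA a) : IsSylowIn 2 c.Q' (centralizer {c.u a}) := by
  have := Fact.mk Nat.prime_two
  refine isSylowIn_of_maximal ?_ (two c _) fun U h1 h2 h3 => by_contra fun e => ?_
  · rw [CM.Q', ← cent_stdA ha]
    rintro _ ⟨x, hx, rfl⟩
    exact mem_centralizer_singleton_iff.2 (Commute.map (mem_centralizer_singleton_iff.1 hx) c.u)
  obtain ⟨x, hx, hx'⟩ := SetLike.exists_of_lt (lt_inf_normalizer_of_isPGroup h1 (h2.lt_of_ne' e))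
  obtain ⟨k, hk⟩ := isPGroup_iff_forall.1 h1 x hx.1
  exact hx' (map_mono (cent_stdA ha).le (c.two_cent_std (h.mem_C_of_two (h.normalizer_Z.le (hb (h.normalizer_Q'.le hx.2)))
    hk) hk (.inl ha) (mem_centralizer_singleton_iff.1 (h3 hx.1))))

theorem notA (h : c.St t0) (hb : 𝒩(c.V) ≤ 𝒩(c.Z)) {a : UO P} (ha : StdA a) {g : G} :
    g * c.u (x4 t0) * g⁻¹ ≠ c.u a := fun e => by
  have := Fact.mk Nat.prime_two
  have h1 := (syl h hb ha).card_le (isPGroup_cj ((UO.isPGroup P).of_surjective _ c.u.rangeRestrict_surjective) g) (by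
    rintro _ ⟨_, ⟨x, rfl⟩, rfl⟩
    exact mem_centralizer_singleton_iff.2 (e ▸ ((c.commute_Z (mem_sup_left (mem_sup_left ⟨x, rfl⟩)) t0).map
      (MulAut.conj g)).eq))
  rw [card_cj, card_map_of_injective c.u_inj, card_Qp, ← Nat.card_congr (MonoidHom.ofInjective c.u_inj).toEquiv,
    card_UO] at h1
  exact absurd ((Nat.pow_le_pow_iff_right Finite.one_lt_card).1 h1) (by decide)

theorem notCD (h : c.St t0) (hb : 𝒩(c.V) ≤ 𝒩(c.Z)) {a : UO P} (ha : StdC a ∨ StdD a) {g : G} :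
    g * c.u (x4 t0) * g⁻¹ ≠ c.u a := fun e => by
  have := Fact.mk Nat.prime_two
  obtain ⟨k, hk, b, b1, -, b2, b3⟩ := h.partnerCD ha e
  replace e : g * k * c.u (x4 t0) * (g * k)⁻¹ = c.u a := by
    rw [← e, mul_assoc g, (c.commute_Z hk t0).eq]; group
  generalize g * k = g at b2 b3 e
  have a1 := cent_cd ha
  have m1 := tp_le c a1
  have m2 := (cj_mono g (tp_le c (cent_cd b1))).trans (MM_conj g)
  rw [b2, cj_eq b3] at m2
  obtain ⟨Q, q1, q2⟩ := exists_isSylowIn_ge (two c _) m1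
  obtain ⟨n, -, q3⟩ := syl_conj_le (syl h hb (a := x6 1) ⟨by simp, by simp⟩) q1.isPGroup fun x hx =>
    mem_centralizer_singleton_iff.2 (comm_of_mem (q1.le hx).1.2 (mem_map_of_mem _ (by simp))).symm
  rw [cj_le_iff, ← h.cent_V, cj_cent] at q3
  have v0 := card_cj n⁻¹ c.V
  have v2 := isPGroup_cj (two c (Vs P)) n⁻¹
  generalize cj n⁻¹ c.V = V at q3 v0 v2
  have t1 := (map_mono (Tp_facts a1).2.1).trans (q2.trans q3)
  have t2 : V ≤ c.im (centralizer {a}) := fun x hx => by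
    obtain ⟨j, hj⟩ := isPGroup_iff_forall.1 v2 x hx
    exact c.two_cent_std (h.mem_C_of_two (h.norm (mem_centralizer_singleton_iff.2
      (comm_of_mem (t1 (mem_map_of_mem _ ((Tp_facts a1).1 (by simp)))) hx))) hj) hj (.inr (.inr ha))
      (comm_of_mem (t1 (mem_map_of_mem _ (mem_centralizer_singleton_iff.2 rfl))) hx)
  have t3 := le_of_syl_of_res q1 q3 ((res_le_of_pow fun x hx => ⟨1, MM_sq (by
    rintro _ ⟨w, hw, rfl⟩
    rw [← map_mul, show w * w = 1 by ext <;> simp_all [CharTwo.add_self_eq_zero], map_one]) hx⟩).trans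
      (cent_mono (le_inf t2 (le_centralizer_iff.1 t1))))
  have t4 := eq_of_le_of_card_ge ((le_inf t2 (le_centralizer_iff.1 (m1.trans t3))).trans (tp_cen c a1)) v0.ge
  have t5 := le_inf t2 (le_centralizer_iff.1 (m2.trans t3))
  rw [← b2, ← cj_cent, ← cj_inf, t4] at t5
  have t6 := hb (inv_mem_iff.1 (mem_norm_of_cj_le (le_cj_iff.1 (t5.trans (cj_mono g (tp_cen c (cent_cd b1)))))))
  exact (Std.sq (.inr (.inr ha))).2 ((mem_map_iff_mem c.u_inj).1 (e ▸ conj_mem t6 (mem_map_of_mem _ (by simp))))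

end GF2

theorem CM.St.bad {c : CM R G} {t0 : K} (h : c.St t0) (hb : ¬ c.Good) (g : G) (hg : g * c.u (x4 t0) * g⁻¹ ∈ c.S) :
    g * c.u (x4 t0) * g⁻¹ ∈ c.Z := by
  have hb' : 𝒩(c.V) ≤ 𝒩(c.Z) := fun x hx => by_contra fun e => hb ⟨x, hx, e⟩
  by_contra hZ
  obtain ⟨k, -, a, ha, e, -⟩ := c.exists_std_conj hg (by
    rw [conj_mul, ← map_mul, show (x4 t0 * x4 t0 : UO P) = 1 by ext <;> simp [CharTwo.add_self_eq_zero], map_one]
    group) hZ
  replace e : k * g * c.u (x4 t0) * (k * g)⁻¹ = c.u a := by rw [← e]; group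
  rcases ha with ha | ha | ha
  exacts [GF2.notA h hb' ha e, h.not_stdB ha e, GF2.notCD h hb' ha e]

end CL.Oct
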