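/-
The good case: the group induced on `V` by its normalizer contains `SL₂(q)`.
-/
import Cfsg.Agent.Oct.UF
import Cfsg.Agent.Oct.D
import Cfsg.Agent.Grp.Coprime2
import Cfsg.Agent.Grp.CoresPi

set_option autoImplicit false
set_option linter.unusedSectionVars false

namespace CL.Oct

open UO Cfsg Equiv

variable {K : Type*} [Field K] [CharP K 2] [Finite K]

namespace GLJ

/-- a group of additive automorphisms of the plane -/
structure GH (Γ : Subgroup (Perm (K × K))) (t0 : K) : Prop where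
  ne : t0 ≠ 0
  add : ∀ φ ∈ Γ, ∀ x y, φ (x + y) = φ x + φ y
  E : ∀ a c, c ≠ 0 → ∃ φ ∈ Γ, ∀ x y, φ (x, y) = (x + a * y, c * y)
  nz : ∀ φ ∈ Γ, (φ (t0, 0)).2 = 0 → ∀ w, (φ w).2 = 0 ↔ w.2 = 0
  good : ∃ φ ∈ Γ, (φ (t0, 0)).2 ≠ 0
  odd : ¬ 2 ∣ {w | ∃ φ ∈ Γ, φ (t0, 0) = w}.ncard

namespace GH

variable {Γ : Subgroup (Perm (K × K))} {t0 : K} (h : GH Γ t0)
include h

theorem zero {φ : Perm (K × K)} (hφ : φ ∈ Γ) : φ 0 = 0 := by simpa using h.add φ hφ 0 0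

theorem out {w : K × K} (hw : w.2 ≠ 0) : ∃ φ ∈ Γ, φ (t0, 0) = w := by
  obtain ⟨φ, h1, h2⟩ := h.good
  obtain ⟨ψ, h3, h4⟩ := h.E ((w.1 - (φ (t0, 0)).1) / (φ (t0, 0)).2) _ (div_ne_zero hw h2)
  refine ⟨ψ * φ, mul_mem h3 h1, (h4 (φ (t0, 0)).1 (φ (t0, 0)).2).trans ?_⟩
  rw [div_mul_cancel₀ _ h2, div_mul_cancel₀ _ h2, add_sub_cancel]

theorem trans {w : K × K} (hw : w ≠ 0) : ∃ φ ∈ Γ, φ (t0, 0) = w := by
  let Y : AddSubgroup (K × K) :=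
    { carrier := {w | ∀ ψ ∈ Γ, (ψ w).2 = 0}
      zero_mem' := fun ψ hψ => by rw [h.zero hψ]; rfl
      add_mem' := fun ha hb ψ hψ => by rw [h.add ψ hψ, Prod.snd_add, ha ψ hψ, hb ψ hψ, add_zero]
      neg_mem' := fun {x} ha ψ hψ => by rw [show -x = x from Prod.ext (CharTwo.neg_eq _) (CharTwo.neg_eq _)]; exact ha ψ hψ }
  have e : {w | ∃ φ ∈ Γ, φ (t0, 0) = w} = (Y : Set (K × K))ᶜ := by
    ext x
    constructor
    · rintro ⟨φ, h1, rfl⟩ h2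
      obtain ⟨ψ, h3, h4⟩ := h.good
      exact h4 (by simpa using h2 (ψ * φ⁻¹) (mul_mem h3 (inv_mem h1)))
    · intro hx
      obtain ⟨ψ, h1, h2⟩ : ∃ ψ ∈ Γ, (ψ x).2 ≠ 0 := by
        by_contra hc
        exact hx fun ψ hψ => by_contra fun h3 => hc ⟨ψ, hψ, h3⟩
      obtain ⟨φ, h3, h4⟩ := h.out h2
      exact ⟨ψ⁻¹ * φ, mul_mem (inv_mem h1) h3, by simp [h4]⟩
  by_contra hc
  have h1 : w ∈ Y := by_contra fun h1 => hc (e.ge h1)
  have h2 : addOrderOf w = 2 := addOrderOf_eq_prime ((two_nsmul w).trans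
    (Prod.ext (CharTwo.add_self_eq_zero _) (CharTwo.add_self_eq_zero _))) hw
  have h3 := Set.ncard_add_ncard_compl (Y : Set (K × K))
  have h4 : 2 ∣ (Y : Set (K × K)).ncard := h2 ▸ Y.addOrderOf_dvd_natCard h1
  have h5 : 2 ∣ Nat.card (K × K) := h2 ▸ addOrderOf_dvd_natCard w
  exact h.odd (e ▸ (Nat.dvd_add_right h4).1 (h3 ▸ h5))

theorem ti {ψ : Perm (K × K)} (hψ : ψ ∈ Γ) {a : K} (ha : a ≠ 0) (e : (ψ (a, 0)).2 = 0) (x : K) : (ψ (x, 0)).2 = 0 := by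
  obtain ⟨φ, h1, h2⟩ := h.trans (w := (a, 0)) (by simpa using ha)
  have h3 := h.nz (ψ * φ) (mul_mem hψ h1) (by rw [Perm.mul_apply, h2, e]) (φ⁻¹ (x, 0))
  rw [← h.nz φ h1 (by rw [h2]) (φ⁻¹ (x, 0))] at h3
  simpa using h3

theorem ti2 {g k : Perm (K × K)} (hg : g ∈ Γ) (hk : k ∈ Γ) {a b : K} (ha : a ≠ 0) (e : g (a, 0) = k (b, 0)) (x : K) :
    ∃ y, k (y, 0) = g (x, 0) := by
  have := h.ti (mul_mem (inv_mem hk) hg) ha (by simp [e]) x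
  exact ⟨((k⁻¹ * g) (x, 0)).1, by
    rw [show (((k⁻¹ * g) (x, 0)).1, (0 : K)) = (k⁻¹ * g) (x, 0) from Prod.ext rfl this.symm]; simp⟩

theorem fst_zero {g : Perm (K × K)} (hg : g ∈ Γ) (e : g (t0, 0) = (0, 1)) (x : K) : (g (x, 0)).1 = 0 := by
  have h0 : ∀ {a}, (∃ x, g (x, 0) = (a, 0)) → a = 0 := by
    rintro a ⟨x, e1⟩
    by_cases hx : x = 0
    · exact (congrArg Prod.fst ((hx ▸ e1).symm.trans (h.zero hg)))
    · simpa [e] using h.ti hg hx (by rw [e1]) t0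
  have h1 : ∀ {a b a' b'}, (∃ x, g (x, 0) = (a, b)) → (∃ x, g (x, 0) = (a', b')) → ∃ x, g (x, 0) = (a + a', b + b') := by
    rintro a b a' b' ⟨x, e1⟩ ⟨y, e2⟩
    exact ⟨x + y, by rw [← Prod.mk_add_mk, ← e1, ← e2, ← h.add g hg]; simp⟩
  have h2 : ∀ {a c x y}, c ≠ 0 → (∃ z, g (z, 0) = (a, c)) → (∃ z, g (z, 0) = (x, y)) →
      ∃ z, g (z, 0) = (x + a * y, c * y) := by
    rintro a c x y hc ⟨z, e1⟩ ⟨z', e2⟩
    obtain ⟨φ, h3, h4⟩ := h.E a c hc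
    obtain ⟨u, hu⟩ := h.ti2 (mul_mem h3 hg) hg h.ne (b := z) (by simp [e, e1, h4]) z'
    exact ⟨u, by simp [hu, e2, h4]⟩
  have m : ∃ z, g (z, 0) = ((g (x, 0)).1, (g (x, 0)).2) := ⟨x, rfl⟩
  generalize (g (x, 0)).1 = a, (g (x, 0)).2 = c at m
  by_cases hc : c = 0
  · exact h0 (hc ▸ m)
  have m' := h1 m ⟨_, e⟩
  by_cases hc' : c + 1 = 0
  · rw [hc'] at m'
    simpa using h0 m'
  have := h1 (h2 hc m m') (h2 hc' m' m)
  rw [mul_comm c, CharTwo.add_self_eq_zero] at this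
  have := h0 this
  grind

theorem low (k : K) : ∃ φ ∈ Γ, ∀ a b, φ (a, b) = (a, b + k * a) := by
  by_cases hk : k = 0
  · exact ⟨1, one_mem _, by simp [hk]⟩
  obtain ⟨g, hg, e⟩ := h.out (w := (0, 1)) one_ne_zero
  have h1 := h.fst_zero hg e
  have h2 : ∀ y, ∃ x, g (x, 0) = (0, y) := fun y =>
    let ⟨x, hx⟩ := (Finite.injective_iff_surjective (f := fun x => (g (x, 0)).2)).1 (fun x x' e =>
      congrArg Prod.fst (g.injective (Prod.ext ((h1 x).trans (h1 x').symm) e))) y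
    ⟨x, Prod.ext (h1 x) hx⟩
  have h3 : (g⁻¹ (1, 0)).2 ≠ 0 := fun e => by
    have := h1 (g⁻¹ (1, 0)).1
    rw [show ((g⁻¹ (1, 0)).1, (0 : K)) = g⁻¹ (1, 0) from Prod.ext rfl e.symm] at this
    simp at this
  obtain ⟨x, hx⟩ := h2 k
  obtain ⟨T, hT, h4⟩ := h.E (x / (g⁻¹ (1, 0)).2) 1 one_ne_zero
  obtain ⟨T', hT', h5⟩ := h.E k⁻¹ 1 one_ne_zero
  have hs : g * T * g⁻¹ ∈ Γ := mul_mem (mul_mem hg hT) (inv_mem hg)
  have h6 : ∀ w, (g * T * g⁻¹) w = w + g (x / (g⁻¹ (1, 0)).2 * (g⁻¹ w).2, 0) := fun w => by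
    rw [Perm.mul_apply, Perm.mul_apply, h4 (g⁻¹ w).1 (g⁻¹ w).2]
    conv_rhs => lhs; rw [← g.apply_symm_apply w]
    rw [← h.add g hg]
    simp [Prod.add_def]
  refine ⟨_, hs, fun a b => ?_⟩
  obtain ⟨y, hy⟩ := h.ti2 hs (mul_mem hT' hg) one_ne_zero (b := x)
    (by rw [h6, div_mul_cancel₀ _ h3, Perm.mul_apply, hx, h5]; simp [hk]) a
  obtain ⟨z, hz⟩ := h2 b
  have h7 : (g * T * g⁻¹) (0, b) = (0, b) := by
    rw [h6, ← hz, show g⁻¹ (g (z, 0)) = (z, 0) by simp, mul_zero]; exact add_eq_left.2 (h.zero hg)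
  have h8 := congrArg Prod.fst (h6 (a, 0))
  rw [Prod.fst_add, h1, ← hy] at h8
  rw [show (a, b) = (a, 0) + (0, b) by simp, h.add _ hs, h7, ← hy]
  rw [Perm.mul_apply, show g (y, 0) = (0, (g (y, 0)).2) from Prod.ext (h1 y) rfl, h5] at h8 ⊢
  simp only [zero_add, add_zero] at h8
  simp [← h8, hk, add_comm]

end GH

variable {P : Par K} {R : Rk P} {G : Type*} [Group G] (c : CM R G)

theorem v_add (a b a' b' : K) : c.v (a + a') (b + b') = c.v a b * c.v a' b' := by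
  rw [CM.v, CM.v, CM.v, ← map_mul]
  congr 1
  ext <;> simp

theorem v_inj {w w' : K × K} (e : c.v w.1 w.2 = c.v w'.1 w'.2) : w = w' :=
  Prod.ext (by simpa using congrArg UO.a4 (c.u_inj e)) (by simpa using congrArg UO.a6 (c.u_inj e))

theorem v_zero (a : K) : c.v a 0 = c.u (x4 a) := congrArg c.u (by ext <;> simp)

theorem mem_V {g : G} : g ∈ c.V ↔ ∃ w : K × K, g = c.v w.1 w.2 :=
  ⟨fun ⟨_, hx, e⟩ => let ⟨a, b, e'⟩ := mem_Vs_iff_v.1 hx; ⟨(a, b), by rw [← e, e']; rfl⟩,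
    fun ⟨w, e⟩ => ⟨_, mem_Vs_iff_v.2 ⟨w.1, w.2, rfl⟩, e.symm⟩⟩

theorem v_mem_Z {a b : K} : c.v a b ∈ c.Z ↔ b = 0 := (Subgroup.mem_map_iff_mem c.u_inj).trans (by simp)

/-- `g` induces `φ` on `V` -/
def Ind (g : G) (φ : Perm (K × K)) : Prop := ∀ w : K × K, g * c.v w.1 w.2 * g⁻¹ = c.v (φ w).1 (φ w).2

variable {c}

theorem Ind.one : Ind c 1 1 := fun _ => by simp

theorem Ind.mul {g k : G} {φ ψ : Perm (K × K)} (h : Ind c g φ) (h' : Ind c k ψ) : Ind c (g * k) (φ * ψ) := fun w => by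
  rw [Perm.mul_apply, ← h, ← h']; group

theorem Ind.inv {g : G} {φ : Perm (K × K)} (h : Ind c g φ) : Ind c g⁻¹ φ⁻¹ := fun w => by
  have := h (φ⁻¹ w)
  rw [show φ (φ⁻¹ w) = w by simp] at this
  rw [← this]; group

theorem ind_of {g : G} (f : K × K → K × K) (hf : ∀ w : K × K, g * c.v w.1 w.2 * g⁻¹ = c.v (f w).1 (f w).2) :
    ∃ φ, Ind c g φ ∧ ∀ w, φ w = f w :=
  ⟨Equiv.ofBijective f (Finite.injective_iff_bijective.1 fun w w' e =>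
    v_inj c (by have := hf w; rw [e, ← hf w'] at this; simpa using this)), hf, fun _ => rfl⟩

theorem ind_u (x : UO P) : ∃ φ, Ind c (c.u x) φ ∧ ∀ w, φ w = (w.1 + x.a1 * w.2, w.2) :=
  ind_of _ fun w => by rw [CM.v, ← map_inv, ← map_mul, ← map_mul, conj_v]; rfl

variable (c)

/-- the induced group -/
def Gam : Subgroup (Perm (K × K)) where
  carrier := {φ | ∃ g, Ind c g φ}
  one_mem' := ⟨1, Ind.one⟩
  mul_mem' := fun ⟨_, h⟩ ⟨_, h'⟩ => ⟨_, h.mul h'⟩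
  inv_mem' := fun ⟨_, h⟩ => ⟨_, h.inv⟩

def NN : Subgroup G where
  carrier := {g | ∃ φ, Ind c g φ}
  one_mem' := ⟨1, Ind.one⟩
  mul_mem' := fun ⟨_, h⟩ ⟨_, h'⟩ => ⟨_, h.mul h'⟩
  inv_mem' := fun ⟨_, h⟩ => ⟨_, h.inv⟩

variable {c} {t0 : K}

theorem gh (h : c.St t0) (hg : c.Good)
    (hN : ∀ g, g * c.u (x4 t0) * g⁻¹ ∈ c.Z → g ∈ Subgroup.normalizer (c.Z : Set G)) : GH (Gam c) t0 := by
  have k : ∀ {g φ}, Ind c g φ → (φ (t0, 0)).2 = 0 → g ∈ Subgroup.normalizer (c.Z : Set G) := fun {g φ} e e' =>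
    hN g (by rw [← v_zero, e (t0, 0)]; exact (v_mem_Z c).2 e')
  refine ⟨h.ne, fun φ ⟨g, e⟩ x y => v_inj c ?_, fun a χ hχ => ?_, fun φ ⟨g, e⟩ e' w => ?_, ?_, ?_⟩
  · rw [← e, Prod.fst_add, Prod.snd_add, Prod.fst_add, Prod.snd_add, v_add, v_add, ← e, ← e, conj_mul]
  · obtain ⟨p, h4, h6⟩ := exists_c46 P one_ne_zero hχ
    obtain ⟨φ, e1, e2⟩ := ind_u (c := c) (x1 a)
    obtain ⟨ψ, e3, e4⟩ := ind_of (c := c) (g := c.d ⟨p, h4⟩) (fun w => (w.1, χ * w.2)) fun w => by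
      rw [CM.v, c.d_conj, dg_v, h4, h6, one_mul]; rfl
    exact ⟨ψ * φ, ⟨_, e3.mul e1⟩, fun x y => by simp [e2, e4]⟩
  · rw [← v_mem_Z c (a := (φ w).1), ← v_mem_Z c (a := w.1), ← e]
    exact (Subgroup.mem_normalizer_iff.1 (k e e') _).symm
  · obtain ⟨g, h1, h2⟩ := hg
    choose f hf using fun w : K × K => (mem_V c).1 ((Subgroup.mem_normalizer_iff.1 h1 _).1 ((mem_V c).2 ⟨w, rfl⟩))
    obtain ⟨φ, e, -⟩ := ind_of f hf
    exact ⟨φ, ⟨g, e⟩, fun e' => h2 (k e e')⟩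
  · let _ := MulAction.compHom G ((MulAut.conj (G := G)).comp (NN c).subtype)
    have hS : c.S ≤ NN c := by rintro _ ⟨x, rfl⟩; exact (ind_u x).imp fun _ e => e.1
    have e1 : MulAction.orbit (NN c) (c.v t0 0) = (fun w : K × K => c.v w.1 w.2) '' {w | ∃ φ ∈ Gam c, φ (t0, 0) = w} := by
      ext x
      constructor
      · rintro ⟨⟨g, φ, e⟩, rfl⟩
        exact ⟨_, ⟨φ, ⟨g, e⟩, rfl⟩, (e (t0, 0)).symm⟩
      · rintro ⟨_, ⟨φ, ⟨g, e⟩, rfl⟩, rfl⟩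
        exact ⟨⟨g, φ, e⟩, e (t0, 0)⟩
    rw [← Set.ncard_image_of_injective _ fun _ _ => v_inj c, ← e1, ← MulAction.index_stabilizer]
    refine fun h2 => h.syl (h2.trans ((Subgroup.index_dvd_of_le (H := c.S.subgroupOf (NN c)) ?_).trans
      (Subgroup.relIndex_dvd_index_of_le hS)))
    rintro ⟨g, hg⟩ ⟨x, rfl⟩
    change c.u x * c.v t0 0 * (c.u x)⁻¹ = _
    rw [CM.v, ← map_inv, ← map_mul, ← map_mul, conj_v, mul_zero, add_zero]

theorem low [Finite G] (h : c.St t0) (hg : c.Good)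
    (hN : ∀ g, g * c.u (x4 t0) * g⁻¹ ∈ c.Z → g ∈ Subgroup.normalizer (c.Z : Set G)) : c.Low ∧ oddCore G = ⊥ := by
  have H := gh h hg hN
  refine ⟨fun k => ?_, eq_bot_iff.2 ?_⟩
  · obtain ⟨φ, ⟨g, e⟩, h1⟩ := H.low k
    exact ⟨g, fun a b => by simpa [h1] using e (a, b)⟩
  have v0 : c.v 0 0 = 1 := by simpa using v_add c 0 0 0 0
  have : IsMulCommutative c.V := ⟨⟨fun x y => Subtype.ext (by
    obtain ⟨w, e⟩ := (mem_V c).1 x.2
    obtain ⟨w', e'⟩ := (mem_V c).1 y.2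
    rw [Subgroup.coe_mul, Subgroup.coe_mul, e, e', ← v_add, ← v_add, add_comm w.1, add_comm w.2])⟩⟩
  obtain ⟨n, hn⟩ := (((isPGroup P).to_subgroup (Vs P)).map c.u).exists_card_eq
  refine CL.Grp.le_of_forall_centralizer_le (A := c.V) (fun hc => ?_) Subgroup.le_normalizer_of_normal
    (hn ▸ (CL.Grp.pPrimeCore_coprime 2 G).symm.pow_left n) fun a ha a1 x hx => ?_
  · have h1 : Monoid.exponent c.V ∣ 2 := Monoid.exponent_dvd_of_forall_pow_eq_one fun x => Subtype.ext (by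
      obtain ⟨w, e⟩ := (mem_V c).1 x.2
      rw [Subgroup.coe_pow, e, sq, ← v_add, CharTwo.add_self_eq_zero, CharTwo.add_self_eq_zero, v0]; rfl)
    rw [IsCyclic.exponent_eq_card, Subgroup.card_map_of_injective c.u_inj, card_Vs] at h1
    have h2 := Nat.le_of_dvd two_pos h1
    have h3 : 1 < Nat.card K := Finite.one_lt_card
    nlinarith
  · obtain ⟨w, rfl⟩ := (mem_V c).1 ha
    obtain ⟨φ, ⟨g, e⟩, rfl⟩ := H.trans (w := w) (by rintro rfl; exact a1 v0)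
    have h1 : g⁻¹ * x * g ∈ Subgroup.centralizer {c.u (x4 t0)} := Subgroup.mem_centralizer_singleton_iff.2 (by
      have := Subgroup.mem_centralizer_singleton_iff.1 hx.2
      rw [← e (t0, 0), v_zero] at this
      calc _ = g⁻¹ * (x * (g * c.u (x4 t0) * g⁻¹)) * g := by group
        _ = _ := by rw [this]; group)
    have h2 : (oddCore G).subgroupOf (Subgroup.centralizer {c.u (x4 t0)}) ≤ ⊥ := h.core ▸ CL.Grp.le_pPrimeCore
      ((CL.Grp.pPrimeCore_coprime 2 G).coprime_dvd_left (Subgroup.card_comap_dvd_of_injective _ _ Subtype.val_injective))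
    have h3 := h2 (x := ⟨_, h1⟩) (Subgroup.Normal.conj_mem' inferInstance x hx.1 g)
    simpa [mul_assoc] using congrArg (fun y : Subgroup.centralizer {c.u (x4 t0)} => g * (y : G) * g⁻¹) h3

end GLJ

end CL.Oct
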