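/-
The good case gives the lower unitriangular elements on `V` and `O(G) = 1`.
-/
import Cfsg.Agent.Oct.GA
import Cfsg.Agent.Oct.GL0

set_option autoImplicit false

namespace CL.Oct

open UO Cfsg

variable {K : Type*} [Field K] [CharP K 2] [Finite K] {P : Par K} {R : Rk P} {G : Type*} [Group G] [Finite G]

theorem CM.St.low {c : CM R G} {t0 : K} (h : c.St t0) (hg : c.Good) : c.Low ∧ oddCore G = ⊥ :=
  GLJ.low h hg fun _ e => h.normalizer_Z ▸ h.mem_normalizer_of_conj e

end CL.Oct
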