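/-
Project OCT: the second reflection, from `C(V) = Q'`.
-/
import Cfsg.Agent.Oct.D
import Cfsg.Agent.Oct.UE
import Cfsg.Agent.Grp.SZConj
import Cfsg.Agent.Even.Amb

set_option autoImplicit false
set_option linter.unusedSectionVars false

namespace CL.Oct

open UO Cfsg

variable {K : Type*} [Field K] [CharP K 2] [Finite K] {P : Par K} {R : Rk P} {G : Type*} [Group G] [Finite G]

namespace CM

variable {c : CM R G} {g g' : G} {f f' : K × K → K × K}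

/-- `g` acts on `V` as `f` -/
def GmAc (c : CM R G) (g : G) (f : K × K → K × K) : Prop :=
  ∀ x : K × K, g * c.v x.1 x.2 * g⁻¹ = c.v (f x).1 (f x).2

theorem GmAc.mul (h : c.GmAc g f) (h' : c.GmAc g' f') : c.GmAc (g * g') fun x => f (f' x) := fun x => by
  rw [← h, ← h']; group

theorem GmAc.inv (h : c.GmAc g f) (e : ∀ x, f (f' x) = x) : c.GmAc g⁻¹ f' := fun x => by
  rw [← e x, ← h, e]; group

theorem gm_u (c : CM R G) (y : UO P) : c.GmAc (c.u y) fun x => (x.1 + y.a1 * x.2, x.2) := fun x => by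
  rw [v, ← map_inv, ← map_mul, ← map_mul, conj_v, v]

theorem gm_h (T : c.Tor) (p : Kˣ × Kˣ) : c.GmAc (T.h p) fun x => (c4 P p * x.1, c6 P p * x.2) := fun x => by
  rw [v, T.h_conj, dg_v, v]

theorem GmAc.norm (h : Subgroup.centralizer (c.V : Set G) = c.Q') (k : c.GmAc g f) :
    g ∈ Subgroup.normalizer (c.Q' : Set G) := by
  rw [← h]
  refine Even.norm_le_norm_cent _ (Subgroup.mem_normalizer_fintype ?_)
  rintro _ ⟨x, hx, rfl⟩
  obtain ⟨a, b, rfl⟩ := mem_Vs_iff_v.1 hx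
  exact ⟨_, mem_Vs_iff_v.2 ⟨_, _, rfl⟩, (k (a, b)).symm⟩

theorem GmAc.mem (h : Subgroup.centralizer (c.V : Set G) = c.Q') (k : c.GmAc g f) (k' : c.GmAc g' f')
    (e : ∀ x, f x = f' x) : g'⁻¹ * g ∈ c.Q' := by
  rw [← h, Subgroup.mem_centralizer_iff]
  rintro _ ⟨x, hx, rfl⟩
  obtain ⟨a, b, rfl⟩ := mem_Vs_iff_v.1 hx
  have := k (a, b)
  rw [e, ← k', mul_inv_eq_iff_eq_mul] at this
  rw [mul_assoc g'⁻¹]
  exact (eq_inv_mul_iff_mul_eq.2 (by rw [← mul_assoc, ← mul_assoc]; exact this.symm))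

/-- the centralizer of the torus `K₁` -/
def gmC (T : c.Tor) : Subgroup G := Subgroup.centralizer (Set.range fun μ : Kˣ => T.h (1, μ))

theorem gm_h_mem (T : c.Tor) (p : Kˣ × Kˣ) : T.h p ∈ gmC T := by
  rintro _ ⟨μ, rfl⟩
  rw [← map_mul, ← map_mul, mul_comm]

theorem gm_x1_mem (T : c.Tor) (t : K) : c.u (x1 t) ∈ gmC T := by
  rintro _ ⟨μ, rfl⟩
  rw [← mul_inv_eq_iff_eq_mul, T.h_conj]
  congr 1
  ext <;> simp [c1]

theorem GmAc.eq (h : Subgroup.centralizer (c.V : Set G) = c.Q') (T : c.Tor) (hq : 2 < Nat.card K) (k : c.GmAc g f)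
    (k' : c.GmAc g' f') (e : ∀ x, f x = f' x) (hg : g ∈ gmC T) (hg' : g' ∈ gmC T) : g = g' := by
  obtain ⟨x, hx, e1⟩ := k.mem h k' e
  have h1 := fix_K1 (P := P) (x := x) hq fun μ => c.u_inj (by
    rw [← T.h_conj, mul_inv_eq_iff_eq_mul, e1]
    exact mul_mem (inv_mem hg') hg _ ⟨μ, rfl⟩)
  obtain rfl : x = 1 := by
    obtain ⟨-, -, -, -, -, -, -, -, -, -, -⟩ := id h1
    ext <;> simp_all
  rw [map_one, eq_comm, inv_mul_eq_one] at e1
  exact e1.symm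

theorem gm_exists (h : Subgroup.centralizer (c.V : Set G) = c.Q') (hl : c.Low) (T : c.Tor)
    (hq : 2 < Nat.card K) : ∃ m ∈ gmC T, c.GmAc m Prod.swap := by
  obtain ⟨s, hs⟩ := hl 1
  have hs' : c.GmAc s fun x => (x.1, x.2 + 1 * x.1) := fun x => hs x.1 x.2
  obtain ⟨g, hg⟩ : ∃ g, c.GmAc g Prod.swap := ⟨_, fun x => by
    rw [(((gm_u c (x1 1)).mul hs').mul (gm_u c (x1 1))) x]
    congr 1 <;> simp <;> grind⟩
  let φ := T.h.comp (MonoidHom.inr Kˣ Kˣ)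
  have sc : ∀ {g}, c.GmAc g Prod.swap → ∀ μ, c.GmAc (g * T.h (1, μ) * g⁻¹)
      fun x => (c4 P (1, μ) * x.1, c6 P (1, μ) * x.2) := fun hg μ x => by
    rw [((hg.mul (gm_h T (1, μ))).mul (hg.inv Prod.swap_swap)) x]
    simp [c4_eq, c1]
  have h2 : IsPGroup 2 c.Q' := ((isPGroup P).to_subgroup _).map _
  have co : ∀ ψ : Kˣ →* G, (Nat.card c.Q').Coprime (Nat.card ψ.range) := fun ψ => by
    obtain ⟨k, e⟩ := IsPGroup.iff_card.1 h2
    rw [e]
    exact (((odd_units K).of_dvd_nat (Subgroup.card_range_dvd ψ)).coprime_two_left).pow_left k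
  have q := fun μ => (sc hg μ).mem h (gm_h T (1, μ)) fun _ => rfl
  obtain ⟨n, hn, e⟩ := Grp.schurZassenhaus_conj_of_sup_eq (N := c.Q') (H := φ.range)
    (K := ((MulAut.conj g).toMonoidHom.comp φ).range) (by rintro _ ⟨μ, rfl⟩; exact (gm_h T _).norm h) (co _) (co _)
    (le_antisymm (sup_le le_sup_left (by
      rintro _ ⟨μ, rfl⟩
      simpa [φ, mul_assoc] using mul_mem (Subgroup.mem_sup_right (S := c.Q')
        (T := ((MulAut.conj g).toMonoidHom.comp φ).range) ⟨μ, rfl⟩) (Subgroup.mem_sup_left (inv_mem (q μ)))))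
      (sup_le le_sup_left (by
      rintro _ ⟨μ, rfl⟩
      simpa [φ] using mul_mem (Subgroup.mem_sup_right (S := c.Q') (T := φ.range) ⟨μ, rfl⟩)
        (Subgroup.mem_sup_left (q μ)))))
    (.inl (haveI := h2.isNilpotent; inferInstance))
  obtain ⟨y, hy, e1⟩ := inv_mem hn
  have hm : c.GmAc (n⁻¹ * g) Prod.swap := fun x => by
    rw [← e1, ((gm_u c y).mul hg) x, show y.a1 = 0 from hy]
    simp
  refine ⟨_, ?_, hm⟩
  rintro _ ⟨μ, rfl⟩
  have : g * T.h (1, μ) * g⁻¹ ∈ ((MulAut.conj g).toMonoidHom.comp φ).range := ⟨μ, rfl⟩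
  rw [← e, Subgroup.mem_pointwise_smul_iff_inv_smul_mem] at this
  obtain ⟨ν, e2⟩ := this
  refine (mul_inv_eq_iff_eq_mul.1 ((sc hm μ).eq h T hq (gm_h T _) (fun _ => rfl) ?_ (gm_h_mem T _))).symm
  convert gm_h_mem T (1, ν) using 1
  rw [show T.h (1, ν) = _ from e2]
  simp [mul_assoc]

end CM

open CM in
theorem CM.exists_bm_of {c : CM R G} (h : Subgroup.centralizer (c.V : Set G) = c.Q') (hl : c.Low) (T : c.Tor)
    (hq : 2 < Nat.card K) : ∃ b : BM R G, b.toCM = c := by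
  obtain ⟨m, hC, hm⟩ := gm_exists h hl T hq
  have h1 : m * m = 1 := (hm.mul hm).eq (f' := id) h T hq (fun x => by simp) Prod.swap_swap (mul_mem hC hC) (one_mem _)
  have h2 : ∀ p, m * T.h p * m = T.h (sp p) := fun p => ((hm.mul (gm_h T p)).mul hm).eq h T hq (gm_h T _)
    (fun x => by simp [c_sp]) (mul_mem (mul_mem hC (gm_h_mem T _)) hC) (gm_h_mem T _)
  have h3 : m⁻¹ = m := inv_eq_of_mul_eq_one_left h1
  have h4 : ∀ x, m * (m * x) = x := fun x => by rw [← mul_assoc, h1, one_mul]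
  refine ⟨⟨c, T, m, h1, ?_, h2, fun t => ((hm.mul (gm_u c _)).mul hm).eq h T hq
    ((((gm_u c _).mul (gm_h T _)).mul hm).mul (gm_u c _)) (fun x => ?_) (mul_mem (mul_mem hC (gm_x1_mem T _)) hC)
    (mul_mem (mul_mem (mul_mem (gm_x1_mem T _) (gm_h_mem T _)) hC) (gm_x1_mem T _))⟩, rfl⟩; swap
  · have := t.inv_mul
    simp only [c_rank1, x1_a1, Prod.fst_swap, Prod.snd_swap, Prod.swap_prod_mk, Prod.mk.injEq]
    grind
  have : ∀ x, ∃ y, x ∈ Qp P → y ∈ Qp P ∧ c.u y = m * c.u (rp x) * m⁻¹ := fun x => by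
    by_cases hx : x ∈ Qp P
    · obtain ⟨y, hy⟩ := (Subgroup.mem_normalizer_iff.1 (hm.norm h) _).1 ⟨_, rp_mem hx, rfl⟩
      exact ⟨y, fun _ => hy⟩
    · exact ⟨1, fun k => absurd k hx⟩
  choose ψ hψ using this
  suffices k : ∀ a ∈ Qp P, ψ a = a from fun a ha => by
    have := (hψ a ha).2
    rw [k a ha] at this
    rw [this, ← mul_assoc, h4, inv_mul_cancel_right]
  refine psi hq ψ (fun x hx => (hψ x hx).1) (fun x hx y hy => c.u_inj ?_) (fun p x hx => c.u_inj ?_)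
    fun x hx => c.u_inj ?_
  · rw [map_mul, (hψ _ hx).2, (hψ _ hy).2, (hψ _ (mul_mem hx hy)).2, rp_mul hx hy, map_mul]; group
  · rw [(hψ _ ((dg_mem p x).2.1.2 hx)).2, rp_dg p hx, ← T.h_conj, ← T.h_conj, (hψ _ hx).2, ← h2]
    simp only [mul_inv_rev, h3, mul_assoc, h4, h1, mul_one]
  · obtain ⟨a, b, rfl⟩ := mem_Vs_iff_v.1 hx
    rw [(hψ _ (by simp)).2, rp_v]
    exact hm (b, a)

end CL.Oct
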