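/-
Project OCT: the second reflection.
-/
import Cfsg.Agent.Oct.GA
import Cfsg.Agent.Oct.GM0

set_option autoImplicit false

namespace CL.Oct

open UO Cfsg

variable {K : Type*} [Field K] [CharP K 2] [Finite K] {P : Par K} {R : Rk P} {G : Type*} [Group G] [Finite G]

theorem CM.St.exists_bm {c : CM R G} {t0 : K} (h : c.St t0) (hl : c.Low) (T : c.Tor) (hq : 2 < Nat.card K) :
    ∃ b : BM R G, b.toCM = c := CM.exists_bm_of h.cent_V hl T hq

end CL.Oct
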