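/-
The torus of the large Ree group, from the conjugacy part of the Schur–Zassenhaus theorem in `Aut(C)`.
-/
import Cfsg.Agent.Oct.GL
import Cfsg.Agent.Oct.UB
import Cfsg.Agent.Odd.Lift
import Cfsg.Agent.Grp.SZConj

set_option autoImplicit false
set_option linter.unusedSectionVars false

namespace CL.Oct

open UO Cfsg Subgroup
open scoped Pointwise

variable {K : Type*} [Field K] [CharP K 2] [Finite K] {P : Par K} {R : Rk P} {G : Type*} [Group G] {X : Type*} [Group X]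

namespace Gt

/-- two homomorphisms from a group of odd order that agree modulo a `2`-subgroup are conjugate -/
theorem conj_hom {A T : Type*} [Group A] [Finite A] [Group T] [Finite T] {N : Subgroup A} (hN : IsPGroup 2 N)
    (hT : Odd (Nat.card T)) (f g : T →* A) (hg : g.range ≤ normalizer (N : Set A)) (h : ∀ t, f t * (g t)⁻¹ ∈ N) :
    ∃ n ∈ N, ∀ t, n * f t * n⁻¹ = g t := by
  obtain ⟨k, hk⟩ := IsPGroup.iff_card.1 hN
  have co : ∀ f : T →* A, (Nat.card N).Coprime (Nat.card f.range) := fun f => hk ▸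
    ((Nat.coprime_two_left.2 hT).coprime_dvd_right
      (card_dvd_of_surjective f.rangeRestrict f.rangeRestrict_surjective)).pow_left k
  have := hN.isNilpotent
  obtain ⟨n, hn, e⟩ := CL.Grp.schurZassenhaus_conj_of_sup_eq (K := f.range) hg (co g) (co f) (le_antisymm
    (sup_le le_sup_left (by
      rintro _ ⟨t, rfl⟩
      simpa using mul_mem_sup (inv_mem (h t)) (show f t ∈ f.range from ⟨t, rfl⟩)))
    (sup_le le_sup_left (by
      rintro _ ⟨t, rfl⟩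
      simpa using mul_mem_sup (h t) (show g t ∈ g.range from ⟨t, rfl⟩)))) (.inl inferInstance)
  refine ⟨n⁻¹, inv_mem hn, fun t => ?_⟩
  obtain ⟨_, ⟨s, rfl⟩, e'⟩ := e ▸ (show f t ∈ f.range from ⟨t, rfl⟩)
  replace e' : n * g s * n⁻¹ = f t := e'
  have m : g (s * t⁻¹) ∈ N := by
    have := mul_mem (mul_mem (inv_mem hn) (h t)) ((mem_normalizer_iff.1 (hg ⟨t, rfl⟩) n).1 hn)
    rwa [← e', show n⁻¹ * (n * g s * n⁻¹ * (g t)⁻¹) * (g t * n * (g t)⁻¹) = g s * (g t)⁻¹ by group, ← map_inv,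
      ← map_mul] at this
  have o : g (s * t⁻¹) = 1 := orderOf_eq_one_iff.1 (Nat.eq_one_of_dvd_coprimes (co g) (orderOf_dvd_natCard N m)
    (orderOf_dvd_natCard g.range ⟨_, rfl⟩))
  rw [map_mul, map_inv, mul_inv_eq_one] at o
  rw [← e', o]; group

section
variable {Y : Type*} [Group Y] {U : UO P →* Y} {α β : MulAut Y} {p q : Kˣ × Kˣ}

/-- `α` preserves the image of `U` and acts on it as `p` modulo the Frattini subgroup -/
def AA (U : UO P →* Y) (α : MulAut Y) (p : Kˣ × Kˣ) : Prop :=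
  ∀ a, ∃ b, α (U a) = U b ∧ b.a1 = c1 p * a.a1 ∧ b.b8 = d8 p * a.b8

theorem AA.one : AA U 1 1 := fun a => ⟨a, rfl, by simp [c1], by simp [d8]⟩

theorem AA.mul (h : AA U α p) (h' : AA U β q) : AA U (α * β) (p * q) := fun a => by
  obtain ⟨b, e, e1, e2⟩ := h' a
  obtain ⟨c, f, f1, f2⟩ := h b
  exact ⟨c, by rw [MulAut.mul_apply, e, f], by simp [f1, e1, c1, mul_assoc], by simp [f2, e2, d8, mul_assoc]⟩

theorem AA.aut (hU : Function.Injective U) (h : AA U α p) : ∃ γ : MulAut (UO P), Acts γ p ∧ ∀ a, α (U a) = U (γ a) := by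
  choose f e e1 e2 using h
  let φ : UO P →* UO P := MonoidHom.mk' f fun a b => hU (by rw [← e, map_mul, map_mul, map_mul, e, e])
  exact ⟨MulEquiv.ofBijective φ (Finite.injective_iff_bijective.1 fun a b k =>
    hU (α.injective (by rw [e, e]; exact congrArg U k))), fun a => ⟨e1 a, e2 a⟩, e⟩

theorem AA.inv (hU : Function.Injective U) (h : AA U α p) : AA U α⁻¹ p⁻¹ := fun a => by
  obtain ⟨γ, k, e⟩ := h.aut hU
  obtain ⟨b, rfl⟩ := γ.surjective a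
  exact ⟨b, by rw [← e, MulAut.inv_apply_self], by simp [(k b).1, c1], by simp [(k b).2, d8]⟩

end

section
variable (c : CM R G)

theorem u_mem (a : UO P) : c.u a ∈ c.C := mem_sup_left (mem_sup_left ⟨a, rfl⟩)
theorem d_mem (p : Dp P) : c.d p ∈ c.C := mem_sup_left (mem_sup_right ⟨p, rfl⟩)
theorem n_mem : c.n ∈ c.C := mem_sup_right (mem_zpowers _)

/-- `u` as a map into `C` -/
def UC : UO P →* c.C := c.u.codRestrict _ (u_mem c)

theorem UC_inj : Function.Injective (UC c) := fun _ _ e => c.u_inj (congrArg Subtype.val e)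

variable {c} (T : c.Tor)

theorem h_d (p : Kˣ × Kˣ) (q : Dp P) : T.h p * c.d q * (T.h p)⁻¹ = c.d q := by
  rw [← T.h_d, ← map_mul, mul_comm p, map_mul, mul_inv_cancel_right]

theorem h_n (p : Kˣ × Kˣ) : T.h p * c.n * (T.h p)⁻¹ = c.d ⟨_, mul_sn_inv_mem p⟩ * c.n := by
  rw [← T.h_d, map_mul, map_inv, ← T.n_h, mul_inv_rev, mul_inv_rev, inv_eq_of_mul_eq_one_right c.n_sq]
  simp only [mul_assoc, c.n_sq, mul_one]

theorem h_norm (p : Kˣ × Kˣ) : T.h p ∈ normalizer (c.C : Set G) := by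
  have k : ∀ p, c.C ≤ c.C.comap (MulAut.conj (T.h p)).toMonoidHom := fun p => sup_le (sup_le
    (by rintro _ ⟨a, rfl⟩; exact (congrArg (· ∈ c.C) (T.h_conj p a)).mpr (u_mem c _))
    (by rintro _ ⟨a, rfl⟩; exact (congrArg (· ∈ c.C) (h_d T p a)).mpr (d_mem c _)))
    (zpowers_le.2 ((congrArg (· ∈ c.C) (h_n T p)).mpr (mul_mem (d_mem c _) (n_mem c))))
  exact mem_normalizer_iff.2 fun x => ⟨fun h => k p h, fun h => by simpa [mul_assoc] using k p⁻¹ h⟩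

end

/-- the standard action of the torus on `C` -/
theorem exists_iota (c : CM R G) (M : BM R X) : ∃ ι : Kˣ × Kˣ →* MulAut c.C, (∀ p a, ι p (UC c a) = UC c (dg P p a)) ∧
    (∀ p q, ι p ⟨c.d q, d_mem c q⟩ = ⟨c.d q, d_mem c q⟩) ∧
    ∀ p, ι p ⟨c.n, n_mem c⟩ = ⟨c.d ⟨_, mul_sn_inv_mem p⟩, d_mem c _⟩ * ⟨c.n, n_mem c⟩ := by
  obtain ⟨e, e1, e2, e3⟩ := c.exists_iso M.toCM
  let ι := (MulAut.congr e.symm).toMonoidHom.comp (M.C.normalizerMonoidHom.comp (M.T.h.codRestrict _ (h_norm M.T)))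
  have k : ∀ p x y, M.T.h p * e x * (M.T.h p)⁻¹ = e y → ι p x = y := fun p x y h =>
    e.symm_apply_eq.2 (Subtype.ext h)
  have f1 : ∀ a, (e (UC c a) : X) = M.u a := fun a => congrArg Subtype.val (e1 a _ (u_mem _ a))
  have f2 : ∀ q, (e ⟨c.d q, d_mem c q⟩ : X) = M.d q := fun q => congrArg Subtype.val (e2 q _ (d_mem _ q))
  have f3 : (e ⟨c.n, n_mem c⟩ : X) = M.n := congrArg Subtype.val (e3 _ (n_mem _))
  exact ⟨ι, fun p a => k _ _ _ (by rw [f1, f1, M.T.h_conj]), fun p q => k _ _ _ (by rw [f2, h_d]),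
    fun p => k _ _ _ (by rw [map_mul, coe_mul, f2, f3, h_n])⟩

theorem x4_sq (t : K) : (x4 t * x4 t : UO P) = 1 := by ext <;> simp [CharTwo.add_self_eq_zero]

/-- the automorphisms of `C` acting trivially on `S / Φ(S)` -/
def A2 (c : CM R G) : Subgroup (MulAut c.C) where
  carrier := {α | AA (UC c) α 1}
  one_mem' := AA.one
  mul_mem' h h' := by simpa using AA.mul h h'
  inv_mem' h := by simpa using AA.inv (UC_inj c) h

theorem A2_two (c : CM R G) : IsPGroup 2 (A2 c) := fun α => by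
  obtain ⟨γ, h, e⟩ := AA.aut (UC_inj c) α.2
  obtain ⟨k, hk⟩ := pow_eq_one_of_acts h
  have e1 : ∀ (m : ℕ) a, (α.1 ^ m) (UC c a) = UC c ((γ ^ m) a) := fun m => by
    induction m with
    | zero => exact fun _ => rfl
    | succ m ih => exact fun a => by rw [pow_succ, pow_succ, MulAut.mul_apply, MulAut.mul_apply, e, ih]
  have e2 := e1 (2 ^ k)
  refine ⟨k + 1, Subtype.ext (MulEquiv.ext fun x => ?_)⟩
  rw [SubgroupClass.coe_pow, pow_succ, pow_mul, pow_two, MulAut.mul_apply]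
  generalize α.1 ^ 2 ^ k = δ at e2
  simp only [hk, MulAut.one_apply] at e2
  obtain ⟨z, hz, ez⟩ := c.mem_Z_of_cent_Q (x⁻¹ * δ x).2 (by
    rintro _ ⟨y, hy, rfl⟩
    obtain ⟨y', -, e3⟩ := (mem_normalizer_iff.1 (c.C_le_normalizer_Q x.2) _).1 ⟨y, hy, rfl⟩
    have e4 : UC c y' = x * UC c y * x⁻¹ := Subtype.ext e3
    have e5 := e2 y'
    rw [e4, map_mul, map_mul, e2, map_inv] at e5
    refine congrArg Subtype.val (show x⁻¹ * δ x * UC c y = UC c y * (x⁻¹ * δ x) from ?_)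
    calc x⁻¹ * δ x * UC c y = x⁻¹ * (δ x * UC c y * (δ x)⁻¹) * δ x := by group
      _ = _ := by rw [e5]; group)
  obtain ⟨t, rfl⟩ := mem_Zs_iff_x4.1 hz
  have e6 : δ x = x * UC c (x4 t) := by rw [show UC c (x4 t) = x⁻¹ * δ x from Subtype.ext ez, mul_inv_cancel_left]
  rw [e6, map_mul, e2, e6, mul_assoc, ← map_mul, x4_sq, map_one, mul_one]
  rfl

theorem c4_mul (p q : Kˣ × Kˣ) : c4 P (p * q) = c4 P p * c4 P q := by
  simp only [c4, Prod.fst_mul, Prod.snd_mul, Units.val_mul, map_mul]; ring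

theorem odd_T : Odd (Nat.card (Kˣ × Kˣ)) := by rw [Nat.card_prod]; exact (odd_units K).mul (odd_units K)

variable [Finite G] {c : CM R G} {t0 : K} (h : c.St t0)
include h

theorem exists_acts (hl : c.Low) (p : Kˣ × Kˣ) : ∃ g, AA c.u (MulAut.conj g) p := by
  have w : ∀ l : K, l ≠ 0 → ∃ w : G, ∀ a b, w * c.v a b * w⁻¹ = c.v (l * b) (l⁻¹ * a) := fun l hl0 => by
    obtain ⟨s, hs⟩ := hl l⁻¹
    have k : ∀ a b, c.u (x1 l) * c.v a b * (c.u (x1 l))⁻¹ = c.v (a + l * b) b := fun a b => by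
      rw [CM.v, ← map_inv, ← map_mul, ← map_mul, conj_v]; rfl
    refine ⟨c.u (x1 l) * s * c.u (x1 l), fun a b => ?_⟩
    rw [show c.u (x1 l) * s * c.u (x1 l) * c.v a b * (c.u (x1 l) * s * c.u (x1 l))⁻¹ =
      c.u (x1 l) * (s * (c.u (x1 l) * c.v a b * (c.u (x1 l))⁻¹) * s⁻¹) * (c.u (x1 l))⁻¹ by group, k, hs, k]
    congr 1 <;> grind
  obtain ⟨w1, h1⟩ := w _ (c_ne (P := P) p).1
  obtain ⟨w2, h2⟩ := w 1 one_ne_zero
  have k : ∀ a b, w1 * w2 * c.v a b * (w1 * w2)⁻¹ = c.v (c4 P p * a) ((c4 P p)⁻¹ * b) := fun a b => by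
    rw [show w1 * w2 * c.v a b * (w1 * w2)⁻¹ = w1 * (w2 * c.v a b * w2⁻¹) * w1⁻¹ by group, h2, h1]; simp
  have v0 : ∀ a, c.v a 0 = c.u (x4 a) := fun a => congrArg c.u (by ext <;> simp)
  have k4 : ∀ t, w1 * w2 * c.u (x4 t) * (w1 * w2)⁻¹ = c.u (x4 (c4 P p * t)) := fun t => by rw [← v0, k, mul_zero, v0]
  obtain ⟨q, hq, e, -⟩ := h.lin_acts (h.mem_normalizer_S (h.normalizer_Z ▸ mem_normalizer_fintype (by
    rintro _ ⟨a, ha, rfl⟩
    obtain ⟨t, rfl⟩ := mem_Zs_iff_x4.1 ha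
    exact ⟨_, mem_Zs_iff_x4.2 ⟨_, rfl⟩, (k4 t).symm⟩)) (mem_normalizer_fintype (by
    rintro _ ⟨x, hx, rfl⟩
    obtain ⟨a, b, rfl⟩ := mem_Vs_iff_v.1 hx
    exact ⟨_, mem_Vs_iff_v.2 ⟨_, _, rfl⟩, (k a b).symm⟩))) k4
  have m : p * q⁻¹ ∈ Dp P := mem_Dp.2 (mul_right_cancel₀ (c_ne (P := P) q).1 (by
    rw [← c4_mul, inv_mul_cancel_right, one_mul, e]))
  have := AA.mul (show AA c.u (MulAut.conj (c.d ⟨_, m⟩)) (p * q⁻¹) from fun a => ⟨_, c.d_conj _ a, rfl, rfl⟩)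
    (show AA c.u (MulAut.conj (w1 * w2)) q from hq)
  rw [← map_mul, inv_mul_cancel_right] at this
  exact ⟨_, this⟩

theorem exists_theta (hl : c.Low) : ∃ θ : Kˣ × Kˣ →* G, ∀ p, AA c.u (MulAut.conj (θ p)) p := by
  let Γ : Subgroup (G × (Kˣ × Kˣ)) :=
    { carrier := {x | AA c.u (MulAut.conj x.1) x.2}
      one_mem' := by simpa using AA.one
      mul_mem' := fun h h' => by simpa using AA.mul h h'
      inv_mem' := fun h' => by simpa using AA.inv c.u_inj h' }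
  let f := (MonoidHom.snd _ _).comp Γ.subtype
  have two : IsPGroup 2 f.ker := fun x => by
    have e : x.1.1.2 = 1 := x.2
    obtain ⟨a, ha⟩ := h.mem_S_of_acts (show AA c.u (MulAut.conj x.1.1.1) 1 from e ▸ x.1.2)
    obtain ⟨k, hk⟩ := isPGroup P a
    refine ⟨k, Subtype.ext (Subtype.ext (Prod.ext ?_ ?_))⟩
    · show x.1.1.1 ^ 2 ^ k = 1
      rw [← ha, ← map_pow, hk, map_one]
    · show x.1.1.2 ^ 2 ^ k = 1
      rw [e, one_pow]
  obtain ⟨k, hk⟩ := IsPGroup.iff_card.1 two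
  obtain ⟨s, hs⟩ := CL.Odd.exists_section_of_coprime f (fun p => let ⟨g, hg⟩ := exists_acts h hl p; ⟨⟨(g, p), hg⟩, rfl⟩)
    (hk ▸ (Nat.coprime_two_left.2 odd_T).pow_left k)
  exact ⟨(MonoidHom.fst _ _).comp (Γ.subtype.comp s), fun p => by
    have := (s p).2
    rwa [show (s p).1 = ((s p).1.1, p) from Prod.ext rfl (hs p)] at this⟩

/-- a homomorphism with the right action is a torus -/
theorem tor_of (θ : Kˣ × Kˣ →* G) (h1 : ∀ p a, θ p * c.u a * (θ p)⁻¹ = c.u (dg P p a))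
    (h2 : ∀ p q, θ p * c.d q * (θ p)⁻¹ = c.d q) (h3 : ∀ p, θ p * c.n * (θ p)⁻¹ = c.d ⟨_, mul_sn_inv_mem p⟩ * c.n) :
    Nonempty c.Tor := by
  have hd : ∀ p : Dp P, θ p = c.d p := fun p => by
    obtain ⟨z, hz, ez⟩ := h.cent_Q (g := (c.d p)⁻¹ * θ p) (by
      rintro _ ⟨a, -, rfl⟩
      have := (h1 p a).trans (c.d_conj p a).symm
      calc (c.d p)⁻¹ * θ p * c.u a = (c.d p)⁻¹ * (θ p * c.u a * (θ p)⁻¹) * θ p := by group
        _ = _ := by rw [this]; group)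
    obtain ⟨t, rfl⟩ := mem_Zs_iff_x4.1 hz
    have cm : Commute (c.d p)⁻¹ (θ p) := Commute.inv_left (mul_inv_eq_iff_eq_mul.1 (h2 p p)).symm
    have e1 : ((c.d p)⁻¹ * θ p) ^ 2 = 1 := by rw [← ez, pow_two, ← map_mul, x4_sq, map_one]
    have e2 : ((c.d p)⁻¹ * θ p) ^ Nat.card (Kˣ × Kˣ) = 1 := by
      rw [cm.mul_pow, inv_pow, ← map_pow, ← map_pow, pow_card_eq_one',
        show p ^ Nat.card (Kˣ × Kˣ) = 1 from Subtype.ext pow_card_eq_one', map_one, map_one, inv_one, one_mul]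
    have e3 := pow_gcd_eq_one.2 ⟨e1, e2⟩
    rw [Nat.coprime_two_left.2 odd_T, pow_one, inv_mul_eq_one] at e3
    exact e3.symm
  refine ⟨θ, h1, hd, fun p => ?_⟩
  have := h3 p
  rw [← hd, map_mul, map_inv, mul_assoc, mul_assoc, mul_right_inj, ← inv_inj, mul_inv_rev, mul_inv_rev, inv_inv, inv_inv,
    inv_eq_of_mul_eq_one_right c.n_sq] at this
  rw [mul_assoc, this, ← mul_assoc, c.n_sq, one_mul]

end Gt

variable [Finite G]

open Gt in
theorem CM.St.tor {c : CM R G} {t0 : K} (h : c.St t0) (hg : c.Good) (M : BM R X) :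
    ∃ (c' : CM R G) (t1 : K), c'.C = c.C ∧ c'.S = c.S ∧ c'.u (x4 t1) = c.u (x4 t0) ∧ c'.St t1 ∧ c'.Good ∧
      Nonempty c'.Tor := by
  obtain ⟨θ, hθ⟩ := exists_theta h (h.low hg).1
  obtain ⟨ι, i1, i2, i3⟩ := exists_iota c M
  have θN : ∀ p, θ p ∈ normalizer (c.C : Set G) := fun p => (h.normalizer_S_le (mem_normalizer_fintype (by
    rintro _ ⟨a, rfl⟩
    obtain ⟨b, e, -⟩ := hθ p a
    exact ⟨b, e.symm⟩))).1
  let ψ := c.C.normalizerMonoidHom.comp (θ.codRestrict _ θN)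
  have aψ : ∀ p, AA (UC c) (ψ p) p := fun p a => (hθ p a).imp fun b e => ⟨Subtype.ext e.1, e.2⟩
  have aι : ∀ p, AA (UC c) (ι p) p := fun p a => ⟨_, i1 p a, rfl, rfl⟩
  obtain ⟨β, hβ, e⟩ := conj_hom (A2_two c) odd_T ψ ι (by
    rintro _ ⟨p, rfl⟩
    exact mem_normalizer_fintype fun α hα => show AA _ _ 1 by
      simpa using ((aι p).mul hα).mul ((aι p).inv (UC_inj c)))
    fun p => show AA _ _ 1 by simpa using (aψ p).mul ((aι p).inv (UC_inj c))
  have key : ∀ p x, θ p * (β⁻¹ x : c.C) * (θ p)⁻¹ = (β⁻¹ (ι p x) : c.C) := fun p x => by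
    rw [← e, MulAut.mul_apply, MulAut.mul_apply, MulAut.inv_apply_self]; rfl
  obtain ⟨c', e1, e2, e3, e4⟩ := c.exists_map (c.C.subtype.comp β⁻¹.toMonoidHom) (Subtype.val_injective.comp β⁻¹.injective)
  have f1 : ∀ a, c'.u a = (β⁻¹ (UC c a) : c.C) := fun a => e1 a _
  have f2 : ∀ q, c'.d q = (β⁻¹ ⟨c.d q, d_mem c q⟩ : c.C) := fun q => e2 q _
  have f3 : c'.n = (β⁻¹ ⟨c.n, n_mem c⟩ : c.C) := e3 _
  have eC : c'.C = c.C := by
    rw [e4, MonoidHom.range_comp, MonoidHom.range_eq_top.2 β⁻¹.surjective, ← MonoidHom.range_eq_map, range_subtype]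
  have eS : c'.S = c.S := by
    refine le_antisymm ?_ ?_ <;> rintro _ ⟨a, rfl⟩
    · obtain ⟨b, k, -⟩ := (inv_mem hβ : β⁻¹ ∈ A2 c) a
      exact ⟨b, by rw [f1, k]; rfl⟩
    · obtain ⟨b, k, -⟩ := hβ a
      exact ⟨b, by rw [f1, ← k, MulAut.inv_apply_self]; rfl⟩
  obtain ⟨eZ, eV, -⟩ := c.Z_eq_of_S eS
  obtain ⟨z, hz, ez⟩ := eZ.ge ⟨_, mem_Zs_iff_x4.2 ⟨t0, rfl⟩, rfl⟩
  obtain ⟨t1, rfl⟩ := mem_Zs_iff_x4.1 hz
  have st : c'.St t1 := ⟨fun k => h.ne (by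
      rw [k, show (x4 0 : UO P) = 1 from rfl, map_one, eq_comm, map_eq_one_iff _ c.u_inj] at ez
      exact congrArg UO.a4 ez), by rw [ez, eC]; exact h.norm, by rw [eS]; exact h.syl, by rw [ez]; exact h.core⟩
  refine ⟨c', t1, eC, eS, ez, st, by rw [CM.Good, eV, eZ]; exact hg, tor_of st θ (fun p a => ?_) (fun p q => ?_) fun p => ?_⟩
  · rw [f1, f1, key, i1]
  · rw [f2, key, i2]
  · rw [f2, f3, key, i3, map_mul, coe_mul]

end CL.Oct
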