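/-
From the hypotheses of Parrott's theorem to the standing hypothesis `CM.St`.
-/
import Cfsg.Agent.Oct.CA
import Cfsg.Agent.Oct.AC
import Cfsg.Agent.Grp.SylowIn

set_option autoImplicit false
set_option linter.unusedSectionVars false

namespace CL.Oct

open UO Cfsg

variable {K : Type*} [Field K] [CharP K 2] [Finite K] {P : Par K}
variable {R : Rk P} {G : Type*} [Group G] {X : Type*} [Group X]

namespace StX

theorem S_le_C (c : CM R G) : c.S ≤ c.C := le_sup_left.trans le_sup_left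

theorem card_S (c : CM R G) : Nat.card c.S = Nat.card (UO P) :=
  (Nat.card_congr (MonoidHom.ofInjective c.u_inj).toEquiv).symm

theorem x4_zero : (x4 0 : UO P) = 1 := by ext <;> simp

theorem exists_conj (M : RM R X) [Finite X] (U : Sylow 2 X) {z : X} (hz : orderOf z = 2)
    (hzU : z ∈ (U : Subgroup X)) (hzc : ∀ u ∈ (U : Subgroup X), u * z = z * u) :
    ∃ (x : X) (t : K), t ≠ 0 ∧ x * z * x⁻¹ = M.u (x4 t) := by
  have hS : CL.Grp.IsSylowIn 2 M.u.range ⊤ := ⟨le_top, (isPGroup P).of_surjective _ M.u.rangeRestrict_surjective, by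
    rw [Subgroup.relIndex_top_right]; exact M.syl⟩
  obtain ⟨x, -, hx⟩ := (CL.Grp.isSylowIn_top U).exists_conj_eq hS
  obtain ⟨a, ha⟩ := hx.le (CL.Grp.conj_mem_conj_smul x hzU)
  have h1 : a ∈ Zs P := by
    rw [← center_eq, Subgroup.mem_center_iff]
    intro b
    have h2 := hzc _ ((CL.Grp.mem_conj_smul_iff x _ _).1 (hx.ge ⟨b, rfl⟩))
    apply M.u_inj
    rw [map_mul, map_mul, ha]
    calc M.u b * (x * z * x⁻¹) = x * (x⁻¹ * M.u b * x * z) * x⁻¹ := by group
      _ = _ := by rw [h2]; group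
  obtain ⟨t, rfl⟩ := mem_Zs_iff_x4.1 h1
  refine ⟨x, t, ?_, ha.symm⟩
  rintro rfl
  rw [x4_zero, map_one, eq_comm, mul_inv_eq_one, mul_eq_left] at ha
  rw [ha, orderOf_one] at hz
  exact absurd hz (by norm_num)

theorem exists_hom (M : RM R X) {x z : X} {t : K} (ht : t ≠ 0) (hx : x * z * x⁻¹ = M.u (x4 t)) {C : Subgroup G}
    (e : C ≃* Subgroup.centralizer ({z} : Set X)) : ∃ f : M.C →* G, Function.Injective f ∧ f.range = C := by
  have h1 : ∀ y, y ∈ M.C ↔ x⁻¹ * y * x ∈ Subgroup.centralizer ({z} : Set X) := fun y => by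
    rw [← M.centralizer_eq ht, ← hx, Subgroup.mem_centralizer_singleton_iff, Subgroup.mem_centralizer_singleton_iff]
    constructor
    · intro h
      calc x⁻¹ * y * x * z = x⁻¹ * (y * (x * z * x⁻¹)) * x := by group
        _ = _ := by rw [h]; group
    · intro h
      calc y * (x * z * x⁻¹) = x * (x⁻¹ * y * x * z) * x⁻¹ := by group
        _ = _ := by rw [h]; group
  let φ : M.C →* Subgroup.centralizer ({z} : Set X) :=
    MonoidHom.mk' (fun y => ⟨x⁻¹ * y * x, (h1 y).1 y.2⟩) fun a b => Subtype.ext (by simp [mul_assoc])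
  refine ⟨C.subtype.comp (e.symm.toMonoidHom.comp φ), C.subtype_injective.comp (e.symm.injective.comp fun a b h => ?_),
    le_antisymm ?_ fun g hg => ?_⟩
  · exact Subtype.ext (by simpa [φ] using h)
  · rintro _ ⟨y, rfl⟩
    exact (e.symm (φ y)).2
  · refine ⟨⟨x * e ⟨g, hg⟩ * x⁻¹, (h1 _).2 (by simp [mul_assoc])⟩, ?_⟩
    have : φ ⟨x * e ⟨g, hg⟩ * x⁻¹, (h1 _).2 (by simp [mul_assoc])⟩ = e ⟨g, hg⟩ := Subtype.ext (by simp [φ, mul_assoc])
    change ((e.symm (φ _) : C) : G) = g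
    rw [this, e.symm_apply_apply]

end StX

variable [Finite G]

open StX in
theorem exists_st (M : RM R X) [Finite X] (τ : G) (hτ : orderOf τ = 2) (S : Sylow 2 G) (hτS : τ ∈ (S : Subgroup G))
    (hτc : ∀ s ∈ (S : Subgroup G), s * τ = τ * s) (U : Sylow 2 X) (z : X) (hz : orderOf z = 2)
    (hzU : z ∈ (U : Subgroup X)) (hzc : ∀ u ∈ (U : Subgroup X), u * z = z * u)
    (C : Subgroup G) (hCle : C ≤ Subgroup.centralizer ({τ} : Set G))
    (hCn : (C.subgroupOf (Subgroup.centralizer ({τ} : Set G))).Normal)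
    (hρ : Odd (C.relIndex (Subgroup.centralizer ({τ} : Set G)))) (e : C ≃* Subgroup.centralizer ({z} : Set X))
    (hO : oddCore (Subgroup.centralizer ({τ} : Set G)) = ⊥) :
    ∃ (c : CM R G) (t0 : K), c.C = C ∧ c.u (x4 t0) = τ ∧ c.St t0 := by
  obtain ⟨x, t, ht, hx⟩ := exists_conj M U hz hzU hzc
  obtain ⟨f, hf, hr⟩ := exists_hom M ht hx e
  obtain ⟨c, cu, -, -, hc⟩ := M.toCM.exists_map f hf
  rw [hr] at hc
  have hSC : (S : Subgroup G) ≤ C := fun s hs => by
    have h1 : s ∈ Subgroup.centralizer ({τ} : Set G) := Subgroup.mem_centralizer_singleton_iff.2 (hτc s hs)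
    have h2 : s ^ C.relIndex (Subgroup.centralizer ({τ} : Set G)) ∈ C :=
      Subgroup.pow_index_mem (H := C.subgroupOf _) (⟨s, h1⟩ : Subgroup.centralizer ({τ} : Set G))
    obtain ⟨k, hk⟩ := IsPGroup.iff_orderOf.1 S.isPGroup' ⟨s, hs⟩
    rw [Subgroup.orderOf_mk] at hk
    obtain ⟨m, hm⟩ := exists_pow_eq_self_of_coprime (x := s) (n := C.relIndex (Subgroup.centralizer ({τ} : Set G)))
      (by rw [hk]; exact (Nat.coprime_two_right.2 hρ).pow_right k)
    exact hm ▸ pow_mem h2 m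
  obtain ⟨y, hy⟩ := hr.ge (hSC hτS)
  obtain ⟨a, ha, ea⟩ := M.toCM.mem_Z_of_cent_Q y.2 fun q hq => by
    have h1 : q ∈ M.C := S_le_C _ (Subgroup.map_le_range _ _ hq)
    have h2 := Subgroup.mem_centralizer_singleton_iff.1 (hCle (hr.le ⟨⟨q, h1⟩, rfl⟩))
    rw [← hy, ← map_mul, ← map_mul] at h2
    exact (congrArg Subtype.val (hf h2)).symm
  obtain ⟨t0, rfl⟩ := mem_Zs_iff_x4.1 ha
  have e0 : c.u (x4 t0) = τ := by rw [cu _ (ea ▸ y.2), ← hy]; exact congrArg f (Subtype.ext ea)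
  refine ⟨c, t0, hc, e0, ?_, ?_, ?_, e0 ▸ hO⟩
  · rintro rfl
    rw [x4_zero, map_one] at e0
    rw [← e0, orderOf_one] at hτ
    exact absurd hτ (by norm_num)
  · rw [e0, hc]
    exact (Subgroup.normal_subgroupOf_iff_le_normalizer hCle).1 hCn
  · have h1 : c.S.relIndex c.C = M.toCM.S.relIndex M.toCM.C := by
      have h2 := (c.S.subgroupOf c.C).card_mul_index
      have h3 := (M.toCM.S.subgroupOf M.toCM.C).card_mul_index
      rw [Nat.card_congr (Subgroup.subgroupOfEquivOfLe (S_le_C _)).toEquiv, card_S] at h2 h3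
      refine Nat.eq_of_mul_eq_mul_left (Nat.card_pos (α := UO P)) (h2.trans (Eq.trans ?_ h3.symm))
      rw [hc, ← hr]
      exact (Nat.card_congr (MonoidHom.ofInjective hf).toEquiv).symm
    rw [← Subgroup.relIndex_mul_index (S_le_C c), h1, hc]
    refine Nat.prime_two.not_dvd_mul (fun h => M.syl (h.trans ?_)) fun h => S.not_dvd_index (h.trans ?_)
    · exact Dvd.intro _ (Subgroup.relIndex_mul_index (S_le_C _))
    · exact Subgroup.index_dvd_of_le hSC

end CL.Oct
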